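import Mathlib
import Cfsg.Agent.Recog.Fpf3

/-! Simple groups with a self-centralising Sylow `3²` whose normaliser is `3² : SD₁₆` (S3717):
the configuration and the local data of the involution centraliser `X = C(s)`. -/

set_option autoImplicit false

namespace Cfsg.Agent.M11N

open Subgroup Cfsg Cfsg.Agent.PLocal.Amb

variable {G : Type*} [Group G]

/-- `⟨a, s⟩ ≅ SD₁₆` acts on the Sylow 3-subgroup `M = ⟨g, c g c⁻¹⟩`; `c = a²`, `z = a⁴` inverts `M`,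
`C_M(s) = ⟨g⟩`, `C(g) = M ⟨s⟩`. -/
structure Cfg (a c z s g : G) : Prop where
  a8 : orderOf a = 8
  ca : c = a * a
  zc : z = c * c
  ss : s * s = 1
  s1 : s ≠ 1
  sa : s * a * s⁻¹ = a ^ 3
  g3 : g ^ 3 = 1
  g1 : g ≠ 1
  sg : s * g = g * s
  zg : z * g * z⁻¹ = g⁻¹
  gg : g * (c * g * c⁻¹) = c * g * c⁻¹ * g
  conj3 : ∀ x : G, x ^ 3 = 1 → x ≠ 1 → IsConj g x
  no9 : ∀ x : G, x ^ 9 = 1 → x ^ 3 = 1
  c9 : 9 ∣ Nat.card G
  c27 : ¬ 27 ∣ Nat.card G
  c18 : Nat.card (centralizer ({g} : Set G)) = 18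
  c6 : ∀ x : G, x * g = g * x → x * s = s * x → x ∈ zpowers (g * s)
  f4 : ∀ P : Subgroup G, ¬ 3 ∣ Nat.card P → 9 ∣ Nat.card 𝐍[P] → P = ⊥
  f4' : ∀ P : Subgroup G, ¬ 3 ∣ Nat.card P → g ∈ 𝐍[P] → c * g * c⁻¹ ∈ 𝐍[P] → P = ⊥

/-- `Q` is a normal 2-subgroup of `C(s)` containing `s` -/
structure QD (s : G) (Q : Subgroup G) : Prop where
  pg : IsPGroup 2 Q
  sQ : s ∈ Q
  le : Q ≤ centralizer {s}
  nrm : centralizer {s} ≤ 𝐍[Q]

/-- case (K): `C(s) / N ≅ S₃` with `N = Q × K` nilpotent of order prime to 3 -/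
structure KD (s : G) (Q : Subgroup G) : Prop extends QD s Q where
  idx : ∀ P : Subgroup G, IsPGroup 2 P → P ≤ centralizer {s} → ∀ u ∈ P, ∀ v ∈ P, u ∉ Q → v ∉ Q →
    u * v ∈ Q
  k3 : ¬ 3 ∣ Nat.card 𝐎[6, centralizer ({s} : Set G)]
  kc : 𝐎[6, centralizer ({s} : Set G)] ≤ 𝐂[Q]
  s3 : 𝐎[6, centralizer ({s} : Set G)] = ⊥ →
    Q = (pCore 2 (centralizer ({s} : Set G))).map (centralizer ({s} : Set G)).subtype ∧
    Nonempty (centralizer ({s} : Set G) ⧸ pCore 2 (centralizer ({s} : Set G)) ≃* Equiv.Perm (Fin 3))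

/-- case (A): `C(s) / Q ≅ A₅` with `Q / ⟨s⟩` elementary abelian and non-trivial -/
structure AD (s : G) (Q : Subgroup G) : Prop extends QD s Q where
  sq : ∀ u ∈ Q, u * u = 1 ∨ u * u = s
  big : ∃ q ∈ Q, q ≠ 1 ∧ q ≠ s
  syl : ∀ R : Subgroup G, IsSyl 2 R (centralizer {s}) → Nat.card R = 4 * Nat.card Q ∧
    (∀ r ∈ R, r * r ∈ Q) ∧ ∃ x : G, x ^ 3 = 1 ∧ x ≠ 1 ∧ x * s = s * x ∧ x ∈ 𝐍[R]

namespace Cfg

variable {a c z s g : G} (h : Cfg a c z s g)
include h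

theorem a_pow : a ^ 8 = 1 := by rw [← h.a8, pow_orderOf_eq_one]

theorem z_eq : z = a ^ 4 := by rw [h.zc, h.ca]; simp only [pow_succ, pow_zero, one_mul, mul_assoc]

theorem zz : z * z = 1 := by rw [h.z_eq, ← pow_add, h.a_pow]

theorem z1 : z ≠ 1 := fun e => by
  have := orderOf_dvd_of_pow_eq_one (h.z_eq ▸ e : a ^ 4 = 1)
  rw [h.a8] at this; omega

theorem s_inv : s⁻¹ = s := inv_eq_of_mul_eq_one_right h.ss

theorem z_inv : z⁻¹ = z := inv_eq_of_mul_eq_one_right h.zz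

theorem cz : c * z = z * c := by rw [h.zc]; group

theorem az : a * z = z * a := by rw [h.z_eq]; group

theorem ac : a * c = c * a := by rw [h.ca]; group

theorem scs : s * c * s⁻¹ = c⁻¹ := by
  rw [h.ca, ← conj_mul, h.sa, eq_inv_iff_mul_eq_one, ← h.a_pow]; group

theorem sz : s * z = z * s := by
  rw [← mul_inv_eq_iff_eq_mul, h.zc, ← conj_mul, h.scs, ← mul_inv_rev, ← h.zc, h.z_inv]

/-- `s' = c s c⁻¹ = z s` -/
theorem csc : c * s * c⁻¹ = z * s := by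
  calc c * s * c⁻¹ = c * (s * c * s⁻¹)⁻¹ * s := by rw [mul_inv_rev, mul_inv_rev]; simp [mul_assoc]
    _ = z * s := by rw [h.scs, inv_inv, h.zc]

theorem czsc : c * (z * s) * c⁻¹ = s := by
  rw [← conj_mul, h.csc, h.cz, mul_inv_cancel_right, ← mul_assoc, h.zz, one_mul]

theorem czc : c * z * c⁻¹ = z := by rw [h.cz, mul_inv_cancel_right]

theorem zs_sq : z * s * (z * s) = 1 := by
  rw [mul_assoc, ← mul_assoc s, h.sz, mul_assoc, h.ss, mul_one, h.zz]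

theorem g_inv_ne : g⁻¹ ≠ g := fun e => h.g1 (by
  have := h.g3
  rwa [pow_succ, pow_two, show g * g = 1 by nth_rw 1 [← e]; simp, one_mul] at this)

theorem z_ne_s : z ≠ s := fun e => h.g_inv_ne (by
  rw [← h.zg, e, h.sg, mul_inv_cancel_right])

theorem zs1 : z * s ≠ 1 := fun e => h.z_ne_s (by rw [eq_inv_of_mul_eq_one_left e, h.s_inv])

/-- `c g' c⁻¹ = g⁻¹` -/
theorem cg' : c * (c * g * c⁻¹) * c⁻¹ = g⁻¹ := by rw [← h.zg, h.zc]; group

theorem zg' : z * (c * g * c⁻¹) * z⁻¹ = (c * g * c⁻¹)⁻¹ := by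
  calc z * (c * g * c⁻¹) * z⁻¹ = c * (z * g * z⁻¹) * c⁻¹ := by rw [h.zc]; group
    _ = _ := by rw [h.zg]; group

theorem sg' : s * (c * g * c⁻¹) * s⁻¹ = (c * g * c⁻¹)⁻¹ := by
  rw [← conj_mul, ← conj_mul, ← conj_inv, h.scs, h.sg, mul_inv_cancel_right]
  calc c⁻¹ * g * c⁻¹⁻¹ = c * (z * g * z⁻¹) * c⁻¹ := by
        rw [show z * g * z⁻¹ = z⁻¹ * g * z by rw [h.z_inv], h.zc]; group
    _ = _ := by rw [h.zg]; group

theorem gX : g ∈ centralizer ({s} : Set G) := mem_centralizer_singleton_iff.2 h.sg.symm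

theorem zX : z ∈ centralizer ({s} : Set G) := mem_centralizer_singleton_iff.2 h.sz.symm

variable [Finite G]

theorem card_cent {x : G} (x3 : x ^ 3 = 1) (x1 : x ≠ 1) :
    Nat.card (centralizer ({x} : Set G)) = 18 := by
  obtain ⟨k, rfl⟩ := isConj_iff.1 (h.conj3 x x3 x1)
  rw [centralizer_singleton_conj, card_cj, h.c18]

/-- (F1) 2-subgroups centralising an element of order 3 have order at most 2 -/
theorem f1 {x : G} (x3 : x ^ 3 = 1) (x1 : x ≠ 1) {P : Subgroup G} (hP : IsPGroup 2 P) {u v : G}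
    (hu : u ∈ P) (hv : v ∈ P) (ux : u * x = x * u) (vx : v * x = x * v) (v1 : v ≠ 1) :
    u = 1 ∨ u = v := by
  have h1 : Nat.card ↥(P ⊓ centralizer {x}) ∣ 18 := h.card_cent x3 x1 ▸ card_dvd_of_le inf_le_right
  obtain ⟨n, hn⟩ := IsPGroup.iff_card.1 (hP.to_le (inf_le_left : P ⊓ centralizer {x} ≤ P))
  have h2 : Nat.card ↥(P ⊓ centralizer {x}) ≤ 2 := by
    rw [hn] at h1 ⊢
    have : n < 2 := Nat.lt_of_not_le fun k => absurd ((pow_dvd_pow 2 k).trans h1) (by norm_num)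
    interval_cases n <;> omega
  by_contra k
  push Not at k
  have h3 : 3 ≤ Nat.card ↥(P ⊓ centralizer {x}) := by
    rw [← SetLike.coe_sort_coe, Nat.card_coe_set_eq,
      ← (Set.ncard_eq_three.2 ⟨1, u, v, k.1.symm, v1.symm, k.2, rfl⟩)]
    refine Set.ncard_le_ncard ?_
    rintro _ (rfl | rfl | rfl)
    · exact one_mem _
    · exact ⟨hu, mem_centralizer_singleton_iff.2 ux⟩
    · exact ⟨hv, mem_centralizer_singleton_iff.2 vx⟩
  omega

/-- (F1) an involution centralising an element of order 3 is conjugate to `s` -/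
theorem f1c {x u : G} (x3 : x ^ 3 = 1) (x1 : x ≠ 1) (uu : u * u = 1) (u1 : u ≠ 1)
    (ux : u * x = x * u) : IsConj s u := by
  obtain ⟨k, rfl⟩ := isConj_iff.1 (h.conj3 x x3 x1)
  have pu : IsPGroup 2 (zpowers u) := isPGroup_zpowers ⟨1, by rw [pow_one, pow_two, uu]⟩
  have ps : IsPGroup 2 (zpowers (k * s * k⁻¹)) :=
    isPGroup_zpowers ⟨1, by rw [pow_one, pow_two, conj_mul, h.ss]; simp⟩
  have sx : k * s * k⁻¹ * (k * g * k⁻¹) = k * g * k⁻¹ * (k * s * k⁻¹) := by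
    rw [conj_mul, conj_mul, h.sg]
  obtain ⟨T, hT, hle⟩ := exists_isSyl_ge pu (zpowers_le.2 (mem_centralizer_singleton_iff.2 ux))
  obtain ⟨l, hl, h1⟩ := hT.exists_cj_le ps (zpowers_le.2 (mem_centralizer_singleton_iff.2 sx))
  have h2 := h1 (conj_mem_cj l (mem_zpowers _))
  rcases h.f1 x3 x1 hT.pgrp h2 (hle (mem_zpowers u)) (mem_centralizer_singleton_iff.1 (hT.le h2)) ux
    u1 with e | e
  · exact absurd (by simpa using e) h.s1
  · exact isConj_iff.2 ⟨l * k, by rw [← e]; group⟩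

omit h in
/-- an element inverting an element of order 3 that normalises a 2-group does not lie in it -/
theorem not_mem_of_inv {x t : G} (x3 : x ^ 3 = 1) (x1 : x ≠ 1) (tx : t * x * t⁻¹ = x⁻¹)
    {P : Subgroup G} (hP : IsPGroup 2 P) (hx : x ∈ 𝐍[P]) : t ∉ P := fun ht => by
  have h1 : x ∈ P := by
    have := mul_mem ht (conj_mem_of_mem_normalizer hx (inv_mem ht))
    rwa [show t * (x * t⁻¹ * x⁻¹) = x by
      rw [← mul_assoc, ← mul_assoc, tx, ← mul_inv_rev, inv_eq_iff_mul_eq_one, ← x3, pow_succ,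
        pow_two]] at this
  exact x1 (eq_one_of_isPGroup_of_coprime hP h1 (by
    rw [orderOf_eq_prime x3 x1]; norm_num))

end Cfg

end Cfsg.Agent.M11N
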