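import Mathlib
import Cfsg.Agent.M11N.Defs

/-! An element of order 3 acting fixed-point-freely on `P / ⟨s⟩`, `s` a central involution. -/

set_option autoImplicit false

namespace Cfsg.Agent.M11N

open Subgroup Cfsg Cfsg.Agent.PLocal.Amb Cfsg.Agent.Recog
open scoped commutatorElement

universe u

variable {G : Type u} [Group G]

theorem cm (k a b : G) : k * (a * b) * k⁻¹ = k * a * k⁻¹ * (k * b * k⁻¹) := by group

theorem ci (k a : G) : k * a⁻¹ * k⁻¹ = (k * a * k⁻¹)⁻¹ := by group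

theorem cc {z : G} (zz : z * z = 1) (v : G) : z * (z * v * z⁻¹) * z⁻¹ = v := by
  calc _ = z * z * v * (z * z)⁻¹ := by group
    _ = v := by rw [zz]; group

theorem nrm_of [Finite G] {E : Subgroup G} {k : G} (h : ∀ e ∈ E, k * e * k⁻¹ ∈ E) : k ∈ 𝐍[E] :=
  mem_normalizer_of_cj_le (cj_le_iff_forall.2 h)

theorem mem_zs {s u : G} (ss : s * s = 1) : u ∈ zpowers s ↔ u = 1 ∨ u = s := by
  refine ⟨fun h => ?_, ?_⟩
  · obtain ⟨k, rfl⟩ := mem_zpowers_iff.1 h
    have h2 : s ^ (2 : ℤ) = 1 := by rw [zpow_two, ss]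
    rcases Int.even_or_odd' k with ⟨j, rfl | rfl⟩
    · left; rw [zpow_mul, h2, one_zpow]
    · right; rw [zpow_add, zpow_mul, h2, one_zpow, one_mul, zpow_one]
  · rintro (rfl | rfl)
    exacts [one_mem _, mem_zpowers _]

theorem sq_of_zs {s u : G} (ss : s * s = 1) (h : u ∈ zpowers s) : u * u = 1 := by
  rcases (mem_zs ss).1 h with rfl | rfl
  exacts [mul_one 1, ss]

theorem comm_of_zs {s e u : G} (h : e ∈ zpowers s) (hu : u * s = s * u) : u * e = e * u := by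
  obtain ⟨k, rfl⟩ := mem_zpowers_iff.1 h
  exact (Commute.zpow_right hu k).eq

theorem conj_of_zs {s e u : G} (h : e ∈ zpowers s) (hu : u * s = s * u) : u * e * u⁻¹ = e := by
  rw [comm_of_zs h hu, mul_inv_cancel_right]

theorem card_zs {s : G} (ss : s * s = 1) (s1 : s ≠ 1) : Nat.card (zpowers s) = 2 := by
  rw [Nat.card_zpowers, orderOf_eq_prime (by rw [pow_two, ss]) s1]

/-- an involution inverting a fixed-point-free element of order 3 fixes at least `√|M|` elements -/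
theorem card_le_sq [Finite G] {M : Subgroup G} {y z : G} (h : Fpf3 M y) (hz : z ∈ 𝐍[M])
    (zz : z * z = 1) (zy : z * y * z⁻¹ = y⁻¹) :
    Nat.card M ≤ Nat.card ↥(M ⊓ centralizer {z}) ^ 2 := by
  have zi : z⁻¹ = z := inv_eq_of_mul_eq_one_right zz
  have zy' : z * y⁻¹ * z⁻¹ = y := by rw [← conj_inv, zy, inv_inv]
  have cj1 : ∀ w, z * (y * w * y⁻¹) * z⁻¹ = y⁻¹ * (z * w * z⁻¹) * y := fun w => by
    rw [← conj_mul, ← conj_mul, zy, zy']
  have cj2 : ∀ w, z * (y⁻¹ * w * y) * z⁻¹ = y * (z * w * z⁻¹) * y⁻¹ := fun w => by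
    rw [← conj_mul, ← conj_mul, zy, zy']
  have inv : ∀ u, z * (u⁻¹ * (z * u * z⁻¹)) * z⁻¹ = (u⁻¹ * (z * u * z⁻¹))⁻¹ := fun u => by
    rw [cm, cc zz]; group
  have cm' : ∀ w ∈ M, y * w * y⁻¹ * (y⁻¹ * w * y) = y⁻¹ * w * y * (y * w * y⁻¹) := fun w hw =>
    mul_left_cancel (a := w) (by
      rw [← mul_assoc w (y * w * y⁻¹), ← mul_assoc w (y⁻¹ * w * y), h.prod hw, h.prod' hw])
  let f : M → ↥(M ⊓ centralizer {z}) × ↥(M ⊓ centralizer {z}) := fun u =>
    (⟨u * (y * ((u : G)⁻¹ * (z * u * z⁻¹)) * y⁻¹)⁻¹, by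
      have hw := mul_mem (inv_mem u.2) (conj_mem_of_mem_normalizer hz u.2)
      refine mem_inf.2 ⟨mul_mem u.2 (inv_mem (h.conj_mem hw)), mem_centralizer_singleton_iff.2 ?_⟩
      have h1 := h.prod' hw
      rw [eq_comm, ← mul_inv_eq_iff_eq_mul, ← conj_mul, ← conj_inv, cj1, inv]
      have h2 : z * u * z⁻¹ = u * ((u : G)⁻¹ * (z * u * z⁻¹)) := by group
      generalize (u : G)⁻¹ * (z * u * z⁻¹) = w at h1 h2
      rw [h2, mul_assoc, ← eq_inv_of_mul_eq_one_left h1]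
      group⟩,
    ⟨y * ((u : G)⁻¹ * (z * u * z⁻¹)) * y⁻¹ * (y⁻¹ * ((u : G)⁻¹ * (z * u * z⁻¹)) * y)⁻¹, by
      have hw := mul_mem (inv_mem u.2) (conj_mem_of_mem_normalizer hz u.2)
      refine mem_inf.2 ⟨mul_mem (h.conj_mem hw) (inv_mem (h.inv_conj_mem hw)),
        mem_centralizer_singleton_iff.2 ?_⟩
      have h1 := cm' _ hw
      rw [eq_comm, ← mul_inv_eq_iff_eq_mul, ← conj_mul, ← conj_inv, cj1, cj2, inv]
      generalize (u : G)⁻¹ * (z * u * z⁻¹) = w at h1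
      rw [eq_mul_inv_iff_mul_eq]
      calc _ = (y⁻¹ * w * y)⁻¹ * (y * w * y⁻¹ * (y⁻¹ * w * y)) := by group
        _ = _ := by rw [h1]; group⟩)
  have hf : Function.Injective f := fun u v e => by
    have e1 := congrArg (fun t => (t.1 : G)) e
    have e2 := congrArg (fun t => (t.2 : G)) e
    simp only [f] at e1 e2
    have hw := mul_mem (inv_mem u.2) (conj_mem_of_mem_normalizer hz u.2)
    have hw' := mul_mem (inv_mem v.2) (conj_mem_of_mem_normalizer hz v.2)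
    generalize (u : G)⁻¹ * (z * u * z⁻¹) = w at e1 e2 hw
    generalize (v : G)⁻¹ * (z * v * z⁻¹) = w' at e1 e2 hw'
    have h1 := h.inv.fpf (w'⁻¹ * w) (mul_mem (inv_mem hw') hw) (by
      have h2 : y⁻¹ * (w'⁻¹ * w) * y = y * (w'⁻¹ * w) * y⁻¹ := by
        calc _ = (y⁻¹ * w' * y)⁻¹ * (y⁻¹ * w * y) := by group
          _ = (y * w' * y⁻¹)⁻¹ * (y * w' * y⁻¹ * (y⁻¹ * w' * y)⁻¹) * (y⁻¹ * w * y) := by group
          _ = _ := by rw [← e2]; group
      calc _ = y * (y * (w'⁻¹ * w) * y⁻¹) * y⁻¹ := by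
            rw [inv_inv]; nth_rw 1 [← h.mul_self]; nth_rw 3 [← h.inv_mul_inv]; group
        _ = _ := by rw [← h2]; group)
    rw [inv_mul_eq_one.1 h1] at e1
    exact Subtype.ext (mul_right_cancel e1)
  simpa [pow_two] using Nat.card_le_card_of_injective f hf

/-- `x³ = 1`, and `x` acts fixed-point-freely on `P / ⟨s⟩` -/
structure F3 (P : Subgroup G) (s x : G) : Prop where
  ss : s * s = 1
  s1 : s ≠ 1
  sP : s ∈ P
  le : P ≤ centralizer {s}
  xs : x * s = s * x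
  nrm : x ∈ 𝐍[P]
  x3 : x ^ 3 = 1
  fix : ∀ u ∈ P, u * x = x * u → u = 1 ∨ u = s

theorem Cfg.f3 [Finite G] {a c z s g : G} (h : Cfg a c z s g) {P : Subgroup G} {t x : G}
    (hP : IsPGroup 2 P) (tt : t * t = 1) (t1 : t ≠ 1) (tP : t ∈ P) (le : P ≤ centralizer {t})
    (xt : x * t = t * x) (nrm : x ∈ 𝐍[P]) (x3 : x ^ 3 = 1) (x1 : x ≠ 1) : F3 P t x :=
  ⟨tt, t1, tP, le, xt, nrm, x3, fun _ hu e => h.f1 x3 x1 hP hu tP e xt.symm t1⟩

/-- the elements of `P` centralised by `z` modulo `⟨s⟩` -/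
def fixZ (P : Subgroup G) (s z : G) (h : P ≤ centralizer {s}) : Subgroup G where
  carrier := {u | u ∈ P ∧ z * u * z⁻¹ * u⁻¹ ∈ zpowers s}
  one_mem' := ⟨one_mem P, by simp⟩
  mul_mem' := fun {a b} ha hb => ⟨mul_mem ha.1 hb.1, by
    have := mul_mem ha.2 hb.2
    rw [← conj_of_zs hb.2 (mem_centralizer_singleton_iff.1 (h ha.1))] at this
    convert this using 1; group⟩
  inv_mem' := fun {a} ha => ⟨inv_mem ha.1, by
    have := inv_mem ha.2
    rw [← conj_of_zs this (mem_centralizer_singleton_iff.1 (h (inv_mem ha.1)))] at this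
    convert this using 1; group⟩

theorem mem_fixZ {P : Subgroup G} {s z u : G} {h : P ≤ centralizer {s}} :
    u ∈ fixZ P s z h ↔ u ∈ P ∧ z * u * z⁻¹ * u⁻¹ ∈ zpowers s := Iff.rfl

theorem fixZ_le {P : Subgroup G} {s z : G} {h : P ≤ centralizer {s}} : fixZ P s z h ≤ P :=
  fun _ hu => hu.1

theorem mem_fixZ_of_comm {P : Subgroup G} {s z u : G} {h : P ≤ centralizer {s}} (hu : u ∈ P)
    (e : u * z = z * u) : u ∈ fixZ P s z h :=
  ⟨hu, by rw [← e, mul_inv_cancel_right, mul_inv_cancel]; exact one_mem _⟩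

/-- `C_P(z)` has index at most two in `fixZ` -/
theorem fixZ_idx {P : Subgroup G} {s z u v : G} {h : P ≤ centralizer {s}} (ss : s * s = 1)
    (hu : u ∈ fixZ P s z h) (hv : v ∈ fixZ P s z h) (u1 : u * z ≠ z * u) (v1 : v * z ≠ z * v) :
    u * v * z = z * (u * v) := by
  have key : ∀ w ∈ fixZ P s z h, w * z ≠ z * w → z * w * z⁻¹ = s * w := fun w hw w1 => by
    rcases (mem_zs ss).1 hw.2 with e | e
    · exact absurd (by rw [mul_inv_eq_one, mul_inv_eq_iff_eq_mul] at e; exact e.symm) w1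
    · exact mul_inv_eq_iff_eq_mul.1 e
  rw [eq_comm, ← mul_inv_eq_iff_eq_mul, ← conj_mul, key u hu u1, key v hv v1, mul_assoc,
    ← mul_assoc u, mem_centralizer_singleton_iff.1 (h hu.1), ← mul_assoc, ← mul_assoc, ss, one_mul]

namespace F3

variable {P D : Subgroup G} {s x : G} (h : F3 P s x)
include h

theorem xX : x ∈ centralizer ({s} : Set G) := mem_centralizer_singleton_iff.2 h.xs

theorem cs {u : G} (hu : u ∈ P) : u * s = s * u := mem_centralizer_singleton_iff.1 (h.le hu)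

theorem zs_le : zpowers s ≤ P := zpowers_le.2 h.sP

theorem mono (hD : D ≤ P) (sD : s ∈ D) (hn : x ∈ 𝐍[D]) : F3 D s x :=
  ⟨h.ss, h.s1, sD, hD.trans h.le, h.xs, hn, h.x3, fun u hu => h.fix u (hD hu)⟩

theorem conj_mem {u : G} (hu : u ∈ P) : x * u * x⁻¹ ∈ P := conj_mem_of_mem_normalizer h.nrm hu

theorem inv_conj_mem {u : G} (hu : u ∈ P) : x⁻¹ * u * x ∈ P :=
  inv_conj_mem_of_mem_normalizer h.nrm hu

theorem fix' {u : G} (hu : u ∈ P) (e : x * u * x⁻¹ * u⁻¹ ∈ zpowers s) : u ∈ zpowers s := by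
  obtain ⟨t, ht, e1⟩ : ∃ t ∈ zpowers s, x * u * x⁻¹ = t * u := ⟨_, e, by group⟩
  have e2 : ∀ w, x * (t * w) * x⁻¹ = t * (x * w * x⁻¹) := fun w => by
    rw [← conj_mul, conj_of_zs ht h.xs]
  have e3 : u = t * u := by
    calc u = x ^ 3 * u * (x ^ 3)⁻¹ := by rw [h.x3]; group
      _ = x * (x * (x * u * x⁻¹) * x⁻¹) * x⁻¹ := by
        simp only [pow_succ, pow_zero, one_mul, mul_inv_rev, mul_assoc]
      _ = t * t * (t * u) := by rw [e1, e2, e1, e2, e2, e1, mul_assoc]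
      _ = t * u := by rw [sq_of_zs h.ss ht, one_mul]
  refine (mem_zs h.ss).2 (h.fix u hu ?_)
  rw [← e3] at e1
  exact (mul_inv_eq_iff_eq_mul.1 e1).symm

variable [Finite G]

theorem quot : ∃ (Y : Type u) (_ : Group Y) (_ : Finite Y) (π : centralizer ({s} : Set G) →* Y),
    (∀ u, π u = 1 ↔ (u : G) ∈ zpowers s) ∧ Fpf3 ((P.subgroupOf _).map π) (π ⟨x, h.xX⟩) := by
  haveI hn : ((zpowers s).subgroupOf (centralizer ({s} : Set G))).Normal :=
    normal_subgroupOf' fun u hu => nrm_of fun e he => by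
      rwa [conj_of_zs he (mem_centralizer_singleton_iff.1 hu)]
  have hk : ∀ u : centralizer ({s} : Set G), QuotientGroup.mk' ((zpowers s).subgroupOf _) u = 1 ↔
      (u : G) ∈ zpowers s := fun u => QuotientGroup.eq_one_iff u
  refine ⟨_, inferInstance, inferInstance, QuotientGroup.mk' _, hk, ?_, ?_, ?_⟩
  · refine le_normalizer_map _ ⟨_, ?_, rfl⟩
    exact mem_normalizer_of_cj_le (cj_le_iff_forall.2 fun u hu => h.conj_mem hu)
  · rw [← map_pow, show (⟨x, h.xX⟩ : centralizer ({s} : Set G)) ^ 3 = 1 from Subtype.ext h.x3, map_one]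
  · rintro _ ⟨u, hu, rfl⟩ e
    rw [← map_inv, ← map_mul, ← map_mul, ← mul_inv_eq_one, ← map_inv, ← map_mul, hk] at e
    exact (hk u).2 (h.fix' hu e)

theorem prod {u : G} (hu : u ∈ P) : u * (x * u * x⁻¹) * (x⁻¹ * u * x) ∈ zpowers s := by
  obtain ⟨Y, _, _, π, hk, hf⟩ := h.quot
  have := hf.prod (u := π ⟨u, h.le hu⟩) ⟨_, hu, rfl⟩
  simp only [← map_inv, ← map_mul] at this
  exact (hk _).1 this

theorem comm {u v : G} (hu : u ∈ P) (hv : v ∈ P) (e : ⁅u, v⁆ ∈ zpowers s) :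
    ⁅u, x * v * x⁻¹⁆ ∈ zpowers s := by
  obtain ⟨Y, _, _, π, hk, hf⟩ := h.quot
  have := hf.commute_conj_of_commute (u := π ⟨u, h.le hu⟩) (b := π ⟨v, h.le hv⟩) ⟨_, hu, rfl⟩
    ⟨_, hv, rfl⟩ (by
      rw [← commutatorElement_eq_one_iff_commute, ← map_commutatorElement, hk]; exact e)
  simp only [← map_inv, ← map_mul] at this
  rw [← commutatorElement_eq_one_iff_commute, ← map_commutatorElement, hk] at this
  exact this

theorem cls2 {u v w : G} (hu : u ∈ P) (hv : v ∈ P) (hw : w ∈ P) : ⁅w, ⁅u, v⁆⁆ ∈ zpowers s := by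
  obtain ⟨Y, _, _, π, hk, hf⟩ := h.quot
  have := hf.class_two (u := π ⟨u, h.le hu⟩) (v := π ⟨v, h.le hv⟩) (w := π ⟨w, h.le hw⟩) ⟨_, hu, rfl⟩
    ⟨_, hv, rfl⟩ ⟨_, hw, rfl⟩
  rw [← commutatorElement_eq_one_iff_commute, ← map_commutatorElement, ← map_commutatorElement,
    hk] at this
  exact this

omit h in
theorem card_map {Y : Type*} [Group Y] {π : centralizer ({s} : Set G) →* Y} (ss : s * s = 1)
    (s1 : s ≠ 1) (hk : ∀ u, π u = 1 ↔ (u : G) ∈ zpowers s) (sD : s ∈ D) (le : D ≤ centralizer {s}) :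
    Nat.card D = 2 * Nat.card ((D.subgroupOf _).map π) := by
  have h1 := Grp.card_map_mul_card_ker_inf π (D.subgroupOf _)
  have h2 : π.ker ⊓ D.subgroupOf _ = (zpowers s).subgroupOf _ := by
    ext u
    exact ⟨fun hu => (hk u).1 hu.1, fun hu => ⟨(hk u).2 hu, zpowers_le.2 sD hu⟩⟩
  rw [h2, Grp.card_subgroupOf_of_le le, Grp.card_subgroupOf_of_le ((zpowers_le.2 sD).trans le),
    card_zs ss s1] at h1
  omega

theorem card_mod : Nat.card P % 3 = 2 := by
  obtain ⟨Y, _, _, π, hk, hf⟩ := h.quot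
  have := hf.card_mod
  rw [card_map h.ss h.s1 hk h.sP h.le]
  omega

theorem le_of_card_lt (hD : D ≤ P) (sD : s ∈ D) (hn : x ∈ 𝐍[D]) (hP : IsPGroup 2 P)
    (hc : Nat.card P < 4 * Nat.card D) : P ≤ D := by
  have h1 := h.card_mod
  have h2 := (h.mono hD sD hn).card_mod
  obtain ⟨k, hk⟩ := card_dvd_of_le hD
  obtain ⟨n, hn⟩ := IsPGroup.iff_card.1 hP
  have h3 : k < 4 := by
    by_contra h3
    have := Nat.mul_le_mul_left (Nat.card D) (Nat.le_of_not_lt h3)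
    omega
  refine (eq_of_le_of_card_ge hD ?_).ge
  interval_cases k
  · have := Nat.card_pos (α := P); omega
  · omega
  · omega
  · omega

variable {z : G}

theorem card_le (hz : z ∈ 𝐍[P]) (zs : z * s = s * z) (zz : z * z = 1) (zx : z * x * z⁻¹ = x⁻¹) :
    2 * Nat.card P ≤ Nat.card (fixZ P s z h.le) ^ 2 := by
  obtain ⟨Y, _, _, π, hk, hf⟩ := h.quot
  have zX : z ∈ centralizer ({s} : Set G) := mem_centralizer_singleton_iff.2 zs
  have h1 := card_le_sq hf (z := π ⟨z, zX⟩) (le_normalizer_map _ ⟨_, nrm_of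
    fun u hu => (conj_mem_of_mem_normalizer hz hu : z * u * z⁻¹ ∈ P), rfl⟩)
    (by rw [← map_mul, show (⟨z, zX⟩ : centralizer ({s} : Set G)) * ⟨z, zX⟩ = 1 from Subtype.ext zz,
      map_one])
    (by simp only [← map_inv, ← map_mul]; exact congrArg π (Subtype.ext zx))
  have h2 : (P.subgroupOf _).map π ⊓ centralizer {π ⟨z, zX⟩} =
      ((fixZ P s z h.le).subgroupOf _).map π := by
    have key : ∀ u, π u * π ⟨z, zX⟩ = π ⟨z, zX⟩ * π u ↔ z * u * z⁻¹ * (u : G)⁻¹ ∈ zpowers s :=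
      fun u => by
        rw [eq_comm, ← mul_inv_eq_iff_eq_mul, ← mul_inv_eq_one]
        simp only [← map_inv, ← map_mul]
        exact hk _
    ext y
    constructor
    · rintro ⟨⟨u, hu, rfl⟩, e⟩
      exact ⟨u, ⟨hu, (key u).1 (mem_centralizer_singleton_iff.1 e)⟩, rfl⟩
    · rintro ⟨u, hu, rfl⟩
      exact ⟨⟨u, hu.1, rfl⟩, mem_centralizer_singleton_iff.2 ((key u).2 hu.2)⟩
  rw [card_map h.ss h.s1 hk h.sP h.le, card_map (D := fixZ P s z h.le) h.ss h.s1 hk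
    (mem_fixZ_of_comm h.sP zs.symm) (fixZ_le.trans h.le), ← h2]
  nlinarith

/-- an element fixed by `z` modulo `⟨s⟩` is a norm modulo `⟨s⟩` -/
theorem exists_norm (zx : z * x * z⁻¹ = x⁻¹) {u : G} (hu : u ∈ fixZ P s z h.le) :
    ∃ f ∈ zpowers s, u = f * (x * u * x⁻¹ * (z * (x * u * x⁻¹) * z⁻¹))⁻¹ := by
  have h1 := mul_mem (h.prod hu.1) hu.2
  refine ⟨_, h1, ?_⟩
  have zx' : z * x⁻¹ * z⁻¹ = x := by rw [← conj_inv, zx, inv_inv]
  obtain ⟨e, he, e1⟩ : ∃ e ∈ zpowers s, z * u * z⁻¹ = e * u := ⟨_, hu.2, by group⟩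
  have e2 : x⁻¹ * e = e * x⁻¹ := comm_of_zs he (Commute.inv_left h.xs).eq
  rw [cm z, cm z, zx, zx', e1, ← mul_assoc x⁻¹, e2,
    show e * x⁻¹ * u * x = e * (x⁻¹ * u * x) by group, ← comm_of_zs he (h.cs (h.inv_conj_mem hu.1))]
  group

theorem comm_of_center (hz : z ∈ 𝐍[P]) (zs : z * s = s * z) (zz : z * z = 1)
    (zx : z * x * z⁻¹ = x⁻¹) {u : G} (hu : u ∈ fixZ P s z h.le) (hc : u ∈ 𝐂[P]) :
    u * z = z * u := by
  obtain ⟨f, hf, e⟩ := h.exists_norm zx hu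
  have h1 := conj_mem_of_mem_normalizer (normalizer_le_normalizer_centralizer P h.nrm) hc _
    (conj_mem_of_mem_normalizer hz (h.conj_mem hu.1))
  generalize x * u * x⁻¹ = v at e h1
  rw [eq_comm, ← mul_inv_eq_iff_eq_mul, e, cm, conj_of_zs hf zs, ci, cm z v, cc zz, h1]

theorem sq_eq (zs : z * s = s * z) (zz : z * z = 1) (zx : z * x * z⁻¹ = x⁻¹)
    (sq : ∀ u ∈ P, u * u ∈ zpowers s) {u : G} (hu : u ∈ fixZ P s z h.le) :
    u * u = 1 ↔ u * z = z * u := by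
  obtain ⟨f, hf, e⟩ := h.exists_norm zx hu
  have hv := h.conj_mem hu.1
  generalize x * u * x⁻¹ = v at e hv
  have w2 : z * v * z⁻¹ * (z * v * z⁻¹) = v * v := by rw [conj_mul, conj_of_zs (sq v hv) zs]
  have ws : z * v * z⁻¹ * s = s * (z * v * z⁻¹) :=
    ((Commute.mul_left zs (h.cs hv)).mul_left (Commute.inv_left zs)).eq
  have e1 : z * u * z⁻¹ = f * (z * v * z⁻¹ * v)⁻¹ := by
    rw [e, cm, conj_of_zs hf zs, ci, cm z v, cc zz]
  generalize z * v * z⁻¹ = w at e w2 ws e1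
  have c1 : (v * w)⁻¹ * f = f * (v * w)⁻¹ :=
    comm_of_zs hf (Commute.inv_left (Commute.mul_left (h.cs hv) ws)).eq
  have e2 : u * u = (v * w * (v * w))⁻¹ := by
    rw [e, mul_assoc, ← mul_assoc _ f, c1, ← mul_assoc, ← mul_assoc, sq_of_zs h.ss hf]; group
  have t2 := sq_of_zs h.ss (sq v hv)
  have c2 := comm_of_zs (sq v hv) ws
  rw [e2, inv_eq_one, eq_comm (a := u * z), ← mul_inv_eq_iff_eq_mul, e1, e, mul_right_inj, inv_inj]
  constructor
  · intro k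
    calc w * v = (w * w) * (v * w * (v * w))⁻¹ * (v * w) * (v * v) := by group
      _ = v * v * (v * w) * (v * v) := by rw [k, w2]; group
      _ = v * v * (v * v) * (v * w) := by rw [mul_assoc _ (v * w), mul_assoc v w, c2]; group
      _ = v * w := by rw [t2, one_mul]
  · intro k
    calc v * w * (v * w) = v * (w * v) * w := by group
      _ = v * v * (w * w) := by rw [k]; group
      _ = 1 := by rw [w2, t2]

end F3

end Cfsg.Agent.M11N
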