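import Mathlib
import Cfsg.Agent.M11N.F3

/-! S3717: the intersection `A = Q ⊓ Q^c` has order at most two. -/

set_option autoImplicit false

namespace Cfsg.Agent.M11N

open Subgroup Cfsg Cfsg.Agent.PLocal.Amb Cfsg.Agent.Recog
open scoped commutatorElement

variable {G : Type*} [Group G]

theorem comm_sq {a b : G} (ha : a * a = 1) (hb : b * b = 1) (h : a * b * (a * b) = 1) :
    a * b = b * a := by
  rw [eq_inv_of_mul_eq_one_left h, mul_inv_rev, inv_eq_of_mul_eq_one_right ha,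
    inv_eq_of_mul_eq_one_right hb]

theorem conj_sq {a : G} (k : G) (ha : a * a = 1) : k * a * k⁻¹ * (k * a * k⁻¹) = 1 := by
  rw [conj_mul, ha]; simp

theorem sq_closure {S : Set G} (h1 : ∀ a ∈ S, a * a = 1) (hc : ∀ a ∈ S, ∀ b ∈ S, a * b = b * a)
    {x : G} (hx : x ∈ closure S) : x * x = 1 := by
  have key : ∀ a ∈ closure S, ∀ b ∈ closure S, a * b = b * a := fun a ha b hb =>
    mem_centralizer_singleton_iff.1 ((closure_le _).2 (fun a ha => mem_centralizer_singleton_iff.2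
      (mem_centralizer_singleton_iff.1 ((closure_le (centralizer {a})).2
        (fun b hb => mem_centralizer_singleton_iff.2 (hc b hb a ha)) hb)).symm) ha)
  induction hx using closure_induction with
  | mem x hx => exact h1 x hx
  | one => simp
  | mul x y hx hy h1 h2 => rw [mul_assoc, ← mul_assoc y, ← key x hx y hy, mul_assoc, h2, mul_one, h1]
  | inv x _ h => rw [← mul_inv_rev, h, inv_one]

theorem pg_of_sq {E : Subgroup G} (h : ∀ x ∈ E, x * x = 1) : IsPGroup 2 E :=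
  isPGroup_iff.2 fun x hx => ⟨1, by rw [pow_one, pow_two, h x hx]⟩

theorem nrm_closure [Finite G] {S : Set G} {k : G} (h : ∀ x ∈ S, k * x * k⁻¹ ∈ closure S) :
    k ∈ 𝐍[closure S] :=
  mem_normalizer_of_cj_le (cj_le_iff.2 ((closure_le _).2 fun x hx => mem_cj.2 (by
    rw [inv_inv]; exact h x hx)))

theorem not_three {E : Subgroup G} [Finite G] (h : IsPGroup 2 E) : ¬ 3 ∣ Nat.card E := fun k => by
  obtain ⟨n, hn⟩ := IsPGroup.iff_card.1 h
  exact absurd (Nat.prime_three.dvd_of_dvd_pow (hn ▸ k)) (by norm_num)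

theorem exists_inv2 [Finite G] {E : Subgroup G} (hE : IsPGroup 2 E) (h : E ≠ ⊥) :
    ∃ t ∈ E, t * t = 1 ∧ t ≠ 1 := by
  obtain ⟨n, hn⟩ := IsPGroup.iff_card.1 hE
  obtain ⟨t, ht⟩ := exists_prime_orderOf_dvd_card' (G := E) 2 (hn ▸ dvd_pow_self 2 fun e => h (by
    rw [e, pow_zero] at hn; exact card_eq_one.1 hn))
  refine ⟨t, t.2, ?_, fun e => ?_⟩
  · rw [← pow_two, ← ht]; exact congrArg Subtype.val (pow_orderOf_eq_one t)
  · rw [show t = 1 from Subtype.ext e, orderOf_one] at ht; omega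

theorem tri {x y w : G} (hx : x * x = 1) (hy : y * y = 1) (hw : w * w = 1) (h : x * y * w = 1) :
    x * y = y * x ∧ w = x * y := by
  have h1 : w = x * y := by
    rw [eq_inv_of_mul_eq_one_left h, inv_eq_of_mul_eq_one_right hw]
  exact ⟨comm_sq hx hy (h1 ▸ hw), h1⟩

theorem cube_conj {g : G} (g3 : g ^ 3 = 1) (x : G) : g * (g * x * g⁻¹) * g⁻¹ = g⁻¹ * x * g := by
  have : g * g = g⁻¹ := eq_inv_of_mul_eq_one_left (by rw [← g3, pow_succ, pow_two])
  calc _ = g * g * x * (g * g)⁻¹ := by group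
    _ = _ := by rw [this, inv_inv]

/-- an involution with trivial norms under two commuting elements of order 3 generates with its
conjugates an invariant elementary abelian group -/
theorem exists_inv_two [Finite G] {g k p : G} (gk : g * k = k * g) (g3 : g ^ 3 = 1) (k3 : k ^ 3 = 1)
    (pp : p * p = 1) (h1 : p * (g * p * g⁻¹) * (g⁻¹ * p * g) = 1)
    (h2 : p * (k * p * k⁻¹) * (k⁻¹ * p * k) = 1) :
    ∃ E : Subgroup G, IsPGroup 2 E ∧ p ∈ E ∧ g ∈ 𝐍[E] ∧ k ∈ 𝐍[E] := by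
  have sw : ∀ x, g * (k * x * k⁻¹) * g⁻¹ = k * (g * x * g⁻¹) * k⁻¹ := fun x => by
    calc _ = g * k * x * (g * k)⁻¹ := by group
      _ = _ := by rw [gk]; group
  rw [← cube_conj g3] at h1
  rw [← cube_conj k3] at h2
  obtain ⟨c1, e20⟩ := tri pp (conj_sq g pp) (conj_sq g (conj_sq g pp)) h1
  obtain ⟨c2, e02⟩ := tri pp (conj_sq k pp) (conj_sq k (conj_sq k pp)) h2
  obtain ⟨b, hb⟩ : ∃ b, b = g * p * g⁻¹ := ⟨_, rfl⟩
  obtain ⟨d, hd⟩ : ∃ d, d = k * p * k⁻¹ := ⟨_, rfl⟩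
  obtain ⟨e, he⟩ : ∃ e, e = g * d * g⁻¹ := ⟨_, rfl⟩
  have he' : e = k * b * k⁻¹ := by rw [he, hd, sw, hb]
  rw [← hb] at c1 e20 h1
  rw [← hd] at c2 e02
  have e21 : g * e * g⁻¹ = d * e := by rw [he', sw, e20, cm k, ← hd]
  have e12 : k * e * k⁻¹ = b * e := by rw [he, ← sw, e02, cm g, ← hb]
  have c3 : d * e = e * d := by rw [he', hd, ← cm, ← cm, c1]
  have c4 : b * e = e * b := by rw [he, hb, ← cm, ← cm, c2]
  have c5 : b * d = d * b := by
    have h3 : g * (k * e * k⁻¹) * g⁻¹ = k * (g * e * g⁻¹) * k⁻¹ := sw e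
    rw [e12, e21, cm g, cm k, e20, e21, e02, e12, mul_assoc, mul_assoc, mul_right_inj, ← mul_assoc,
      ← mul_assoc, mul_left_inj] at h3
    exact h3
  have c6 : p * e = e * p := by
    have h3 : g * b * g⁻¹ * e = e * (g * b * g⁻¹) := by rw [he, ← cm, ← cm, c5]
    rw [e20, mul_assoc, c4, ← mul_assoc, ← mul_assoc, mul_left_inj] at h3
    exact h3
  have bb : b * b = 1 := hb ▸ conj_sq g pp
  have dd : d * d = 1 := hd ▸ conj_sq k pp
  have ee : e * e = 1 := he ▸ conj_sq g dd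
  have m1 : p ∈ closure ({p, b, d, e} : Set G) := subset_closure (by simp)
  have m2 : b ∈ closure ({p, b, d, e} : Set G) := subset_closure (by simp)
  have m3 : d ∈ closure ({p, b, d, e} : Set G) := subset_closure (by simp)
  have m4 : e ∈ closure ({p, b, d, e} : Set G) := subset_closure (by simp)
  refine ⟨closure {p, b, d, e}, pg_of_sq fun x hx => sq_closure ?_ ?_ hx, m1, nrm_closure ?_,
    nrm_closure ?_⟩
  · rintro _ (rfl | rfl | rfl | rfl) <;> assumption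
  · rintro _ (rfl | rfl | rfl | rfl) _ (rfl | rfl | rfl | rfl) <;>
      first | rfl | assumption | (symm; assumption)
  · rintro _ (rfl | rfl | rfl | rfl)
    exacts [hb ▸ m2, e20 ▸ mul_mem m1 m2, he ▸ m4, e21 ▸ mul_mem m3 m4]
  · rintro _ (rfl | rfl | rfl | rfl)
    exacts [hd ▸ m3, he' ▸ m4, e02 ▸ mul_mem m1 m3, e12 ▸ mul_mem m2 m4]

/-- extension of `F` by a commuting involution -/
def ex2 (F : Subgroup G) (w : G) (hw : ∀ x ∈ F, w * x = x * w) (w2 : w * w = 1) : Subgroup G where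
  carrier := {x | x ∈ F ∨ w * x ∈ F}
  one_mem' := Or.inl (one_mem _)
  mul_mem' := by
    rintro a b (ha | ha) (hb | hb)
    · exact Or.inl (mul_mem ha hb)
    · exact Or.inr (by rw [← mul_assoc, hw a ha, mul_assoc]; exact mul_mem ha hb)
    · exact Or.inr (by rw [← mul_assoc]; exact mul_mem ha hb)
    · refine Or.inl ?_
      have := mul_mem ha hb
      rwa [← mul_assoc, ← hw _ ha, ← mul_assoc, w2, one_mul] at this
  inv_mem' := by
    rintro a (ha | ha)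
    · exact Or.inl (inv_mem ha)
    · refine Or.inr ?_
      have h1 := inv_mem ha
      have h2 := hw _ h1
      rw [mul_inv_rev, inv_eq_of_mul_eq_one_right w2] at h1 h2
      rw [← mul_assoc, mul_left_inj] at h2
      rwa [h2]

theorem QD.cj {s : G} {Q : Subgroup G} (q : QD s Q) (k : G) : QD (k * s * k⁻¹) cj(k, Q) :=
  ⟨isPGroup_cj k q.pg, conj_mem_cj k q.sQ, centralizer_singleton_conj k s ▸ cj_mono k q.le, by
    rw [centralizer_singleton_conj, normalizer_cj]; exact cj_mono k q.nrm⟩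

/-- the data when `A = Q ⊓ Q^c = {1, p}` -/
structure PD (c z s g p : G) (Q : Subgroup G) : Prop where
  pQ : p ∈ Q
  pQ' : p ∈ cj(c, Q)
  pp : p * p = 1
  p1 : p ≠ 1
  all : ∀ u ∈ Q, u ∈ cj(c, Q) → u = 1 ∨ u = p
  cp : c * p = p * c
  sp : IsConj s p
  zp : IsConj z (p * s)
  rho : ∃ r : G, r ^ 3 = 1 ∧ r ≠ 1 ∧ g * p * g⁻¹ * r * (g * p * g⁻¹)⁻¹ = r⁻¹ ∧
    r ∈ zpowers (g * p * g⁻¹ * (c * (g * p * g⁻¹) * c⁻¹))

namespace Cfg

variable [Finite G] {a c z s g : G} (h : Cfg a c z s g) {Q : Subgroup G} (q : QD s Q)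
include h

omit [Finite G] in
theorem g'3 : (c * g * c⁻¹) ^ 3 = 1 := by rw [conj_pow, h.g3]; simp

omit [Finite G] in
theorem g'1 : c * g * c⁻¹ ≠ 1 := fun e => h.g1 (by simpa using e)

omit [Finite G] in
theorem three {x : G} {j : ℕ} (hx : x ^ 3 ^ j = 1) : x ^ 3 = 1 := by
  induction j generalizing x with
  | zero => rw [pow_zero, pow_one] at hx; rw [hx, one_pow]
  | succ j ih => exact h.no9 x (by rw [← ih (x := x ^ 3) (by rw [← pow_mul, ← pow_succ', hx]), ← pow_mul])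

include q

omit [Finite G] in
theorem qd' : QD (z * s) cj(c, Q) := h.csc ▸ q.cj c

theorem f3Q : F3 Q s g := h.f3 q.pg h.ss h.s1 q.sQ q.le h.sg.symm (q.nrm h.gX) h.g3 h.g1

omit [Finite G] in
theorem g'N : c * g * c⁻¹ ∈ 𝐍[cj(c, Q)] := by rw [normalizer_cj]; exact conj_mem_cj c (q.nrm h.gX)

theorem f3Q' : F3 cj(c, Q) (z * s) (c * g * c⁻¹) :=
  h.f3 (h.qd' q).pg h.zs_sq h.zs1 (h.qd' q).sQ (h.qd' q).le
    (by rw [← h.csc, ← cm, ← cm, h.sg]) (h.g'N q) h.g'3 h.g'1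

theorem zQ : z ∉ Q := not_mem_of_inv h.g3 h.g1 h.zg q.pg (q.nrm h.gX)

theorem sQ' : s ∉ cj(c, Q) := not_mem_of_inv h.g'3 h.g'1 h.sg' (h.qd' q).pg (h.g'N q)

omit [Finite G] in
theorem cjcj : cj(c, cj(c, Q)) = Q := by
  rw [← cj_mul, ← h.zc, cj_of_mem_normalizer (q.nrm h.zX)]

omit [Finite G] in
theorem cA : c ∈ 𝐍[Q ⊓ cj(c, Q)] := by
  rw [← cj_eq_iff, cj_inf, h.cjcj q, inf_comm]

omit [Finite G] in
theorem A_z {u : G} (hu : u ∈ Q) (hu' : u ∈ cj(c, Q)) : u * z = z * u := by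
  have h1 := mem_centralizer_singleton_iff.1 (q.le hu)
  have h2 := mem_centralizer_singleton_iff.1 ((h.qd' q).le hu')
  rw [mul_assoc, ← h1, ← mul_assoc, ← mul_assoc] at h2
  exact mul_right_cancel h2

theorem mt : Q ⊓ cj(c, Q) = ⊥ ∨ ∃ p, PD c z s g p Q := by
  refine or_iff_not_imp_left.2 fun h0 => ?_
  have pA : IsPGroup 2 ↥(Q ⊓ cj(c, Q)) := q.pg.to_le inf_le_left
  have hT : IsPGroup 2 ↥(zpowers c ⊔ (Q ⊓ cj(c, Q))) := isPGroup_sup (isPGroup_zpowers ⟨2, by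
    rw [show c ^ 2 ^ 2 = c * c * (c * c) by simp only [pow_succ, pow_zero, one_mul, mul_assoc, Nat.reduceMul],
      ← h.zc, h.zz]⟩) pA (zpowers_le.2 (h.cA q))
  obtain ⟨p, ⟨⟨pQ, pQ'⟩, pC⟩, pp, p1⟩ := exists_inv2 (pA.to_le inf_le_left)
    (inf_centralizer_ne_bot hT pA (sup_le (zpowers_le.2 (h.cA q)) le_normalizer) h0)
  have cp : c * p = p * c := pC c (mem_sup_left (mem_zpowers c))
  have cp' : c * p * c⁻¹ = p := by rw [cp, mul_inv_cancel_right]
  have F := h.f3Q q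
  have F' := h.f3Q' q
  have ps := F.cs pQ
  have pz := h.A_z q pQ pQ'
  have h1 := F.prod pQ
  have cy : c * (g * p * g⁻¹) * c⁻¹ = c * g * c⁻¹ * p * (c * g * c⁻¹)⁻¹ := by
    rw [cm, cm, ci, cp']
  have h2 : c * (p * (g * p * g⁻¹) * (g⁻¹ * p * g)) * c⁻¹ = p * (c * g * c⁻¹ * p * (c * g * c⁻¹)⁻¹) *
      ((c * g * c⁻¹)⁻¹ * p * (c * g * c⁻¹)) := by
    rw [cm, cm, cy, cm, cm, ci, cp']
  rcases (mem_zs h.ss).1 h1 with h1 | h1
  · obtain ⟨E, hE, pE, n1, n2⟩ := exists_inv_two h.gg h.g3 h.g'3 pp h1 (by rw [← h2, h1]; simp)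
    rw [h.f4' E (not_three hE) n1 n2] at pE
    exact absurd (mem_bot.1 pE) p1
  obtain ⟨y, hy⟩ : ∃ y, y = g * p * g⁻¹ := ⟨_, rfl⟩
  have yQ : y ∈ Q := hy ▸ F.conj_mem pQ
  have yy : y * y = 1 := hy ▸ conj_sq g pp
  have ys := F.cs yQ
  have zyz : z * y * z⁻¹ = g⁻¹ * p * g := by
    rw [hy, cm, cm, ci, h.zg, ← pz, mul_inv_cancel_right, inv_inv]
  rw [← hy, ← zyz] at h1 
  obtain ⟨py, e1⟩ := tri pp yy (w := z * y * z⁻¹ * s) (by
    rw [mul_assoc _ s, ← mul_assoc s, ← F.cs (conj_mem_of_mem_normalizer (q.nrm h.zX) yQ),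
      mul_assoc _ s s, h.ss, mul_one, conj_sq z yy]) (by rw [← mul_assoc, h1, h.ss])
  have yz : y * z * y⁻¹ = z * (p * s) := by
    have : z * y * z⁻¹ = p * y * s := by rw [← e1, mul_assoc _ s, h.ss, mul_one]
    calc y * z * y⁻¹ = z * (z * y * z⁻¹) * y⁻¹ := by
          rw [h.z_inv, ← mul_assoc z (z * y), ← mul_assoc z z, h.zz, one_mul]
      _ = _ := by rw [this, mul_assoc p, ys]; group
  have yp : y * p * y⁻¹ = p := by rw [← py, mul_inv_cancel_right]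
  have ys' : y * s * y⁻¹ = s := by rw [ys, mul_inv_cancel_right]
  obtain ⟨y', hy'⟩ : ∃ y', y' = c * y * c⁻¹ := ⟨_, rfl⟩
  have y'p : y' * p * y'⁻¹ = p := by
    nth_rw 1 [← cp']; rw [hy', ← ci, ← cm, ← cm, yp, cp']
  have y'z : y' * z * y'⁻¹ = p * s := by
    nth_rw 1 [← h.czc]
    rw [hy', ← ci, ← cm, ← cm, yz, cm, cm, h.czc, cp', h.csc, ← mul_assoc p, pz, ← mul_assoc,
      ← mul_assoc, h.zz, one_mul]
  have y's : y' * s * y'⁻¹ = p * z := by
    have : y' * (z * s) * y'⁻¹ = z * s := by rw [← h.csc, hy', ← ci, ← cm, ← cm, ys']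
    rw [cm, y'z, ← eq_inv_mul_iff_mul_eq] at this
    rw [this, mul_inv_rev, h.s_inv, inv_eq_of_mul_eq_one_right pp, ← ps, mul_assoc, ← h.sz,
      ← mul_assoc s, h.ss, one_mul]
  have y'y' : y' * y' = 1 := hy' ▸ conj_sq c yy
  -- the element `r` of order three
  obtain ⟨r, r3, r1, m, rfl⟩ : ∃ r : G, r ^ 3 = 1 ∧ r ≠ 1 ∧ ∃ m : ℕ, (y * y') ^ m = r := by
    have cj2 : ∀ x, y * y' * x * (y * y')⁻¹ = y * (y' * x * y'⁻¹) * y⁻¹ := fun x => by group
    have t1 : y * y' * s * (y * y')⁻¹ = z * s := by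
      rw [cj2, y's, cm, yp, yz, ← mul_assoc, pz, ← mul_assoc, mul_assoc z, pp, mul_one]
    have t2 : y * y' * z * (y * y')⁻¹ = p * s := by rw [cj2, y'z, cm, yp, ys']
    have t3 : y * y' * p * (y * y')⁻¹ = p := by rw [cj2, y'p, yp]
    generalize y * y' = t at t1 t2 t3
    have t4 : t ^ 3 ∈ centralizer {s} := by
      rw [mem_centralizer_singleton_iff, ← mul_inv_eq_iff_eq_mul]
      calc _ = t * (t * (t * s * t⁻¹) * t⁻¹) * t⁻¹ := by
            simp only [pow_succ, pow_zero, one_mul, mul_inv_rev, mul_assoc]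
        _ = s := by
            rw [t1, cm t z, t1, t2, mul_assoc p, ← h.sz, ← mul_assoc s, h.ss, one_mul, cm, t3, t2,
              ← mul_assoc, pp, one_mul]
    obtain ⟨j, m, hm, e⟩ := Nat.exists_eq_pow_mul_and_not_dvd (orderOf_pos t).ne' 3 (by norm_num)
    refine ⟨t ^ m, h.three (j := j) (by rw [← pow_mul, mul_comm, ← e, pow_orderOf_eq_one]),
      fun k => ?_, m, rfl⟩
    have := mem_centralizer_singleton_iff.1 (mem_of_pow_mem_of_coprime t4
      ((Nat.prime_three.coprime_iff_not_dvd.2 hm).symm.coprime_dvd_left (orderOf_dvd_of_pow_eq_one k)))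
    rw [this, mul_inv_cancel_right, right_eq_mul] at t1
    exact h.z1 t1
  have rp : p * (y * y') ^ m = (y * y') ^ m * p :=
    ((Commute.mul_right py (mul_inv_eq_iff_eq_mul.1 y'p).symm).pow_right m).eq
  have m1 : p ∈ closure ({p, s, z} : Set G) := subset_closure (by simp)
  have m2 : s ∈ closure ({p, s, z} : Set G) := subset_closure (by simp)
  have m3 : z ∈ closure ({p, s, z} : Set G) := subset_closure (by simp)
  have sz := h.sz
  have sqE : ∀ x ∈ closure ({p, s, z} : Set G), x * x = 1 := fun x hx => by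
    refine sq_closure ?_ ?_ hx
    · rintro _ (rfl | rfl | rfl)
      exacts [pp, h.ss, h.zz]
    · rintro _ (rfl | rfl | rfl) _ (rfl | rfl | rfl) <;> first | rfl | assumption | (symm; assumption)
  have cE : ∀ u ∈ Q ⊓ cj(c, Q), closure ({p, s, z} : Set G) ≤ centralizer {u} := fun u hu => by
    refine (closure_le _).2 ?_
    rintro _ (rfl | rfl | rfl)
    exacts [mem_centralizer_singleton_iff.2 (pC u (mem_sup_right hu)).symm,
      mem_centralizer_singleton_iff.2 (F.cs hu.1).symm,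
      mem_centralizer_singleton_iff.2 (h.A_z q hu.1 hu.2).symm]
  have inE : ∀ u ∈ Q ⊓ cj(c, Q), u ∈ closure ({p, s, z} : Set G) → u = 1 ∨ u = p := fun u hu hE => by
    have v1 : ∀ x ∈ zpowers s, z * x = x * z := fun x hx => comm_of_zs hx sz.symm
    have v2 : ∀ x ∈ ex2 (zpowers s) z v1 h.zz, p * x = x * p := by
      rintro x (hx | hx)
      · exact comm_of_zs hx ps
      · have := comm_of_zs hx ps
        rwa [← mul_assoc, pz, mul_assoc, mul_assoc, mul_right_inj] at this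
    have v3 : ∀ x ∈ Q ⊓ cj(c, Q), x ∈ ex2 (zpowers s) z v1 h.zz → x = 1 := by
      rintro x hx (k | k)
      · exact ((mem_zs h.ss).1 k).resolve_right fun e => h.sQ' q (e ▸ hx.2)
      · exact absurd ((mul_mem_cancel_right (mem_inf.1 hx).1).1 (F.zs_le k)) (h.zQ q)
    have : closure ({p, s, z} : Set G) ≤ ex2 _ p v2 pp := by
      refine (closure_le _).2 ?_
      rintro _ (rfl | rfl | rfl)
      exacts [Or.inr (pp ▸ one_mem _), Or.inl (Or.inl (mem_zpowers _)),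
        Or.inl (Or.inr (h.zz ▸ one_mem _))]
    refine (this hE).imp (v3 u hu) fun k => ?_
    rw [eq_inv_of_mul_eq_one_right (v3 _ (mul_mem ⟨pQ, pQ'⟩ hu) k), inv_eq_of_mul_eq_one_right pp]
  have n1 : y ∈ 𝐍[closure ({p, s, z} : Set G)] := nrm_closure (by
    rintro _ (rfl | rfl | rfl)
    exacts [yp.symm ▸ m1, ys'.symm ▸ m2, yz ▸ mul_mem m3 (mul_mem m1 m2)])
  have n2 : y' ∈ 𝐍[closure ({p, s, z} : Set G)] := nrm_closure (by
    rintro _ (rfl | rfl | rfl)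
    exacts [y'p.symm ▸ m1, y's ▸ mul_mem m1 m3, y'z ▸ mul_mem m1 m2])
  have cp2 : closure ({p, s, z} : Set G) ≤ centralizer {p} := cE p ⟨pQ, pQ'⟩
  generalize closure ({p, s, z} : Set G) = E at *
  let H : Subgroup G :=
    { carrier := {k | k ∈ 𝐍[E] ∧ ∀ u ∈ Q ⊓ cj(c, Q), k * u * k⁻¹ * u⁻¹ ∈ E}
      one_mem' := ⟨one_mem _, fun u _ => by simp⟩
      mul_mem' := fun {a b} ha hb => ⟨mul_mem ha.1 hb.1, fun u hu => by
        convert mul_mem (conj_mem_of_mem_normalizer ha.1 (hb.2 u hu)) (ha.2 u hu) using 1; group⟩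
      inv_mem' := fun {a} ha => ⟨inv_mem ha.1, fun u hu => by
        convert inv_conj_mem_of_mem_normalizer ha.1 (inv_mem (ha.2 u hu)) using 1; group⟩ }
  have up : ∀ u ∈ Q ⊓ cj(c, Q), ∀ t : G, ⁅u, p⁆ ∈ zpowers t := fun u hu t => by
    rw [commutatorElement_eq_one_iff_mul_comm.2 (pC u (mem_sup_right hu))]; exact one_mem _
  have yH : y ∈ H := ⟨n1, fun u hu => by
    have := inv_mem (zpowers_le.2 m2 (F.comm hu.1 pQ (up u hu s)))
    rwa [commutatorElement_inv, ← hy] at this⟩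
  have y'H : y' ∈ H := ⟨n2, fun u hu => by
    have := inv_mem (zpowers_le.2 (mul_mem m3 m2) (F'.comm hu.2 pQ' (up u hu _)))
    rwa [commutatorElement_inv, ← cy, ← hy, ← hy'] at this⟩
  have rH : (y * y') ^ m ∈ H := pow_mem (mul_mem yH y'H) m
  have hr : y * (y * y') ^ m * y⁻¹ = ((y * y') ^ m)⁻¹ := by
    rw [← conj_pow, ← inv_pow, mul_inv_rev, inv_eq_of_mul_eq_one_right yy,
      inv_eq_of_mul_eq_one_right y'y', ← mul_assoc, yy, one_mul]
  refine ⟨p, pQ, pQ', pp, p1, fun u u1 u2 => ?_, cp, h.f1c r3 r1 pp p1 rp, isConj_iff.2 ⟨y', y'z⟩,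
    _, r3, r1, hy ▸ hr, hy ▸ hy' ▸ pow_mem (mem_zpowers _) m⟩
  generalize (y * y') ^ m = r at *
  have hu : u ∈ Q ⊓ cj(c, Q) := ⟨u1, u2⟩
  have n3 : ∀ k ∈ H, k ∈ 𝐍[(Q ⊓ cj(c, Q)) ⊔ E] := fun k hk => mem_normalizer_of_cj_le (by
    rw [cj_sup, cj_of_mem_normalizer hk.1]
    refine sup_le (cj_le_iff_forall.2 fun v hv => ?_) le_sup_right
    simpa using mul_mem (mem_sup_right (hk.2 v hv)) (mem_sup_left hv : v ∈ (Q ⊓ cj(c, Q)) ⊔ E))
  have F0 : F3 ((Q ⊓ cj(c, Q)) ⊔ E) p r := h.f3 (isPGroup_sup pA (pg_of_sq sqE) fun v hv =>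
    nrm_of fun e he => by
      rwa [← mem_centralizer_singleton_iff.1 (cE v hv he), mul_inv_cancel_right]) pp p1
    (mem_sup_right m1) (sup_le (fun v hv => mem_centralizer_singleton_iff.2 (pC v (mem_sup_right hv)))
      cp2) rp.symm (n3 r rH) r3 r1
  have h3 := zpowers_le.2 m1 (F0.prod (mem_sup_left hu))
  obtain ⟨e, he, e2⟩ : ∃ e ∈ E, r * u * r⁻¹ = e * u := ⟨_, rH.2 u hu, by group⟩
  obtain ⟨f, hf, e3⟩ : ∃ f ∈ E, r⁻¹ * u * r = f * u := ⟨_, (inv_mem rH).2 u hu, by group⟩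
  have c1 := mem_centralizer_singleton_iff.1 (cE u hu he)
  have c2 := mem_centralizer_singleton_iff.1 (cE u hu hf)
  rw [e2, e3, ← mul_assoc u, ← c1, c2, mul_assoc e, mul_assoc e, mul_mem_cancel_left he, ← mul_assoc,
    mul_mem_cancel_right hf] at h3
  have hu2 : u ∈ zpowers (u * u * u) := mem_of_pow_mem_of_coprime (n := 3)
    (by rw [pow_succ, pow_two]; exact mem_zpowers _) (by
      obtain ⟨n, hn⟩ := isPGroup_iff.1 q.pg u u1
      exact (Nat.Coprime.pow_left n (by norm_num)).coprime_dvd_left (orderOf_dvd_of_pow_eq_one hn))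
  exact inE u hu (zpowers_le.2 h3 hu2)

end Cfg

end Cfsg.Agent.M11N
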