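import Mathlib
import Cfsg.Agent.M11N.MT

/-! S3717: the case `C(s) / O₂ ≅ A₅` is impossible. -/

set_option autoImplicit false

namespace Cfsg.Agent.M11N

open Subgroup Cfsg Cfsg.Agent.PLocal.Amb Cfsg.Agent.Recog
open scoped commutatorElement

variable {G : Type*} [Group G] [Finite G] {a c z s g : G} {Q : Subgroup G}

theorem PD.card_le {p : G} (d : PD c z s g p Q) {D : Subgroup G} (h1 : D ≤ Q) (h2 : D ≤ cj(c, Q)) :
    Nat.card D ≤ 2 := by
  rw [← card_zs d.pp d.p1]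
  exact card_le_of_le fun u hu => (mem_zs d.pp).2 (d.all u (h1 hu) (h2 hu))

omit [Finite G] in
theorem Cfg.q0_le (h : Cfg a c z s g) (q : QD s Q) :
    cj(c, Q) ⊓ centralizer {z} ≤ centralizer {s} := fun u hu => by
  have h1 := mem_centralizer_singleton_iff.1 ((h.qd' q).le hu.1)
  rw [← mul_assoc, mem_centralizer_singleton_iff.1 hu.2, mul_assoc, mul_assoc, mul_right_inj] at h1
  exact mem_centralizer_singleton_iff.2 h1

omit [Finite G] in
theorem Cfg.cj_q0 (h : Cfg a c z s g) :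
    cj(c, Q ⊓ centralizer {z}) = cj(c, Q) ⊓ centralizer {z} := by
  rw [cj_inf, ← centralizer_singleton_conj, h.czc]

theorem Cfg.caseA (h : Cfg a c z s g) (d : AD s Q) : False := by
  have q := d.toQD
  have F := h.f3Q q
  have zs := h.sz.symm
  have n0 := (h.q0_le q).trans q.nrm
  obtain ⟨R, hR, hle⟩ := exists_isSyl_ge (L := centralizer {s}) (isPGroup_sup
    ((h.qd' q).pg.to_le (inf_le_left : cj(c, Q) ⊓ centralizer {z} ≤ _)) q.pg n0)
    (sup_le (h.q0_le q) q.le)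
  have QR : Q ≤ R := le_sup_right.trans hle
  have Q0R : cj(c, Q) ⊓ centralizer {z} ≤ R := le_sup_left.trans hle
  have zR : z ∈ R := (mul_mem_cancel_right (QR q.sQ)).1 (Q0R ⟨(h.qd' q).sQ,
    mem_centralizer_singleton_iff.2 (by rw [mul_assoc, h.sz])⟩)
  obtain ⟨c4, -, x, x3, x1, xs, xR⟩ := d.syl R hR
  have FR : F3 R s x := h.f3 hR.pgrp h.ss h.s1 (QR q.sQ) hR.le xs xR x3 x1
  have xQ : x ∈ 𝐍[Q] := q.nrm FR.xX
  have xC : x ∈ 𝐍[fixZ R s z hR.le] := nrm_of fun u hu => ⟨FR.conj_mem hu.1, FR.comm zR hu.1 hu.2⟩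
  have RC : R ≤ 𝐍[fixZ R s z hR.le] := fun r hr => nrm_of fun u hu => by
    have : ⁅r, u⁆ ∈ fixZ R s z hR.le := ⟨mul_mem (mul_mem (mul_mem hr hu.1) (inv_mem hr))
      (inv_mem hu.1), FR.cls2 hr hu.1 zR⟩
    simpa [commutatorElement_def] using mul_mem this hu
  have sq : ∀ u ∈ fixZ Q s z q.le, u * u = 1 ↔ u * z = z * u := fun u hu =>
    F.sq_eq zs h.zz h.zg (fun u hu => (mem_zs h.ss).2 (d.sq u hu)) hu
  have xZ : ∀ k ∈ zpowers x, ∀ u ∈ fixZ Q s z q.le, k * u * k⁻¹ ∈ fixZ Q s z q.le :=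
    fun k hk u hu => ⟨conj_mem_of_mem_normalizer (zpowers_le.2 xQ hk) hu.1,
      (conj_mem_of_mem_normalizer (zpowers_le.2 xC hk) (⟨QR hu.1, hu.2⟩ : u ∈ fixZ R s z hR.le)).2⟩
  have Zc : ∀ u ∈ fixZ Q s z q.le, u * z = z * u := fun u hu => by
    by_contra k
    have k1 : ∀ k ∈ zpowers x, k * u * k⁻¹ * z ≠ z * (k * u * k⁻¹) := fun t ht e => k
      ((sq u hu).1 (by
        have := (sq _ (xZ t ht u hu)).2 e
        rwa [conj_mul, conj_eq_one_iff] at this))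
    have h1 := fixZ_idx h.ss hu (xZ x (mem_zpowers x) u hu) k (k1 x (mem_zpowers x))
    have h2 := comm_of_zs (FR.prod (QR hu.1)) zs
    refine k1 x⁻¹ (inv_mem (mem_zpowers x)) ?_
    rw [inv_inv]
    rw [← mul_assoc, ← h1, mul_assoc, mul_assoc _ (x⁻¹ * u * x), mul_right_inj] at h2
    exact h2.symm
  have eZ : fixZ Q s z q.le = Q ⊓ centralizer {z} := le_antisymm
    (fun u hu => ⟨hu.1, mem_centralizer_singleton_iff.2 (Zc u hu)⟩)
    fun u hu => mem_fixZ_of_comm hu.1 (mem_centralizer_singleton_iff.1 hu.2)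
  have b1 := F.card_le (q.nrm h.zX) zs h.zz h.zg
  have b2 := (FR.mono (D := fixZ Q s z q.le) (fixZ_le.trans QR) (mem_fixZ_of_comm q.sQ h.sz)
    (nrm_of (xZ x (mem_zpowers x)))).card_mod
  have b3 : 2 < Nat.card Q := by
    obtain ⟨u, hu, u1, u2⟩ := d.big
    rw [← card_zs h.ss h.s1]
    exact Nat.lt_of_not_le fun k => ((mem_zs h.ss).1
      ((eq_of_le_of_card_ge F.zs_le k).ge hu)).elim u1 u2
  obtain ⟨n, hn⟩ := IsPGroup.iff_card.1 (q.pg.to_le (fixZ_le : fixZ Q s z q.le ≤ Q))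
  have b4 : 8 ≤ Nat.card (fixZ Q s z q.le) := by
    rw [hn] at b1 b2 ⊢
    have : 3 ≤ n := Nat.le_of_not_lt fun k => by interval_cases n <;> omega
    exact Nat.pow_le_pow_right (n := 2) (by norm_num) this
  have b5 := Grp.card_sup_mul_card_inf_of_le_normalizer n0
  have b6 := card_le_of_le hle
  rw [← h.cj_q0, card_cj, h.cj_q0, ← eZ] at b5
  have b7 : 8 * Nat.card Q ≤ Nat.card ↥(cj(c, Q) ⊓ centralizer {z} ⊔ Q) *
      Nat.card ↥(cj(c, Q) ⊓ centralizer {z} ⊓ Q) := b5 ▸ Nat.mul_le_mul_right _ b4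
  rcases h.mt q with e | ⟨p, P⟩
  · rw [show cj(c, Q) ⊓ centralizer {z} ⊓ Q = ⊥ from
      eq_bot_iff.2 fun u hu => e.le ⟨hu.2, hu.1.1⟩, card_bot] at b7
    omega
  have b8 := P.card_le (D := cj(c, Q) ⊓ centralizer {z} ⊓ Q) inf_le_right
    (inf_le_left.trans inf_le_left)
  have eR : cj(c, Q) ⊓ centralizer {z} ⊔ Q = R := eq_of_le_of_card_ge hle (by
    have := b7.trans (Nat.mul_le_mul_left _ b8)
    omega)
  have Q0C : cj(c, Q) ⊓ centralizer {z} ≤ fixZ R s z hR.le := fun u hu =>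
    mem_fixZ_of_comm (Q0R hu) (mem_centralizer_singleton_iff.1 hu.2)
  have cC : c ∈ 𝐍[fixZ R s z hR.le] := nrm_of fun r hr => by
    obtain ⟨u, hu, v, hv, rfl⟩ := (mem_sup_of_le_normalizer_right n0).1 (eR.ge hr.1)
    have h1 : v ∈ Q ⊓ centralizer {z} := eZ.le ⟨hv, ((mul_mem_cancel_left (Q0C hu)).1 hr).2⟩
    rw [cm]
    refine mul_mem (mem_fixZ_of_comm (QR ((h.cjcj q).le (conj_mem_cj c hu.1))) ?_)
      (Q0C (h.cj_q0.le (conj_mem_cj c h1)))
    rw [← h.czc, ← cm, ← cm, mem_centralizer_singleton_iff.1 hu.2]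
  obtain ⟨r, r3, r1, yr, hr⟩ := P.rho
  have yC := RC (QR (F.conj_mem P.pQ))
  have yy := conj_sq g P.pp
  generalize g * p * g⁻¹ = y at *
  have rC := zpowers_le.2 (mul_mem yC (conj_mem_of_mem_normalizer (le_normalizer cC) yC)) hr
  have sC : s ∈ fixZ R s z hR.le := mem_fixZ_of_comm (QR q.sQ) h.sz
  have pC : IsPGroup 2 (fixZ R s z hR.le) := hR.pgrp.to_le fixZ_le
  have eR' : fixZ R s z hR.le ⊔ Q = R := le_antisymm (sup_le fixZ_le QR) (eR.ge.trans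
    (sup_le_sup_right Q0C _))
  generalize fixZ R s z hR.le = C at *
  have : Fact (Nat.Prime 3) := ⟨Nat.prime_three⟩
  obtain ⟨T, hT, xT⟩ := exists_isSyl_ge (p := 3) (isPGroup_zpowers ⟨1, by rw [pow_one, x3]⟩)
    (zpowers_le.2 xC)
  have eT : zpowers x = T := eq_of_le_of_card_ge xT (by
    obtain ⟨k, hk⟩ := IsPGroup.iff_card.1 hT.pgrp
    have : k < 2 := Nat.lt_of_not_le fun e => h.s1 (mem_bot.1 (h.f4 C (not_three pC)
      ((pow_dvd_pow 3 e).trans (hk ▸ card_dvd_of_le hT.le)) ▸ sC))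
    rw [hk, Nat.card_zpowers, orderOf_eq_prime x3 x1]
    interval_cases k <;> omega)
  obtain ⟨l, hl, h1⟩ := hT.exists_cj_le (R := zpowers r) (isPGroup_zpowers ⟨1, by rw [pow_one, r3]⟩)
    (zpowers_le.2 rC)
  have h2 := eT.ge (h1 (conj_mem_cj l (mem_zpowers r)))
  have r3' : (l * r * l⁻¹) ^ 3 = 1 := by rw [conj_pow, r3]; simp
  have r1' : l * r * l⁻¹ ≠ 1 := fun e => r1 (conj_eq_one_iff.1 e)
  have yr' : l * y * l⁻¹ * (l * r * l⁻¹) * (l * y * l⁻¹)⁻¹ = (l * r * l⁻¹)⁻¹ := by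
    rw [← ci, ← cm, ← cm, yr, ci]
  have uC := mul_mem (mul_mem hl yC) (inv_mem hl)
  have uu := conj_sq l yy
  generalize l * r * l⁻¹ = t at *
  generalize l * y * l⁻¹ = u at *
  have ts : s * t = t * s := comm_of_zs h2 xs.symm
  have us : u * s = s * u := by
    have h3 : u * s * u⁻¹ * t⁻¹ = t⁻¹ * (u * s * u⁻¹) := by rw [← yr', ← cm, ← cm, ts]
    rcases h.f1 r3' r1' pC (conj_mem_of_mem_normalizer uC sC) sC
      (Commute.inv_right_iff.1 h3).eq ts h.s1 with e | e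
    · exact absurd (conj_eq_one_iff.1 e) h.s1
    · exact mul_inv_eq_iff_eq_mul.1 e
  have uX := mem_centralizer_singleton_iff.2 us
  refine not_mem_of_inv r3' r1' yr' hR.pgrp (zpowers_le.2 xR h2) (hR.le_of_normalizes
    (isPGroup_zpowers ⟨1, by rw [pow_one, pow_two, uu]⟩) (zpowers_le.2 uX) ?_ (mem_zpowers u))
  rw [← eR']
  exact le_normalizer_sup (zpowers_le.2 uC) (zpowers_le.2 (q.nrm uX))

end Cfsg.Agent.M11N
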