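import Mathlib
import Cfsg.Agent.PLocal.AmbSyl
import Cfsg.Agent.KSG.Z2LGood

/-! S3717: a Sylow 2-subgroup `Hol(C₈)` with the given fusion is impossible in a simple group. -/

set_option autoImplicit false

namespace Cfsg.Agent.M11N

open Subgroup Cfsg Cfsg.Agent.PLocal.Amb

/-- the holomorph of `C₈` -/
def Hc : Type := Fin 8 × Fin 2 × Fin 2

instance hcD : DecidableEq Hc := inferInstanceAs (DecidableEq (Fin 8 × Fin 2 × Fin 2))
instance hcF : Fintype Hc := inferInstanceAs (Fintype (Fin 8 × Fin 2 × Fin 2))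

/-- the multiplier -/
def hu (j k : Fin 2) : Fin 8 := (if j = 0 then 1 else 3) * (if k = 0 then 1 else 5)

instance hcM : Mul Hc := ⟨fun x y => (x.1 + hu x.2.1 x.2.2 * y.1, x.2.1 + y.2.1, x.2.2 + y.2.2)⟩
instance hcO : One Hc := ⟨(0, 0, 0)⟩
instance hcI : Inv Hc := ⟨fun x => (-(hu x.2.1 x.2.2 * x.1), x.2.1, x.2.2)⟩
instance hcG : Group Hc := Group.ofLeftAxioms (by decide +kernel) (by decide +kernel) (by decide +kernel)

/-- an element of the holomorph -/
def hk (i : Fin 8) (j k : Fin 2) : Hc := (i, j, k)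

/-- the subgroup of index two -/
def hU : Subgroup Hc where
  carrier := {x | (x.1.1 + x.2.1.1 + x.2.2.1) % 2 = 0}
  one_mem' := rfl
  mul_mem' := by
    have : ∀ x : Hc, (x.1.1 + x.2.1.1 + x.2.2.1) % 2 = 0 → ∀ y : Hc, (y.1.1 + y.2.1.1 + y.2.2.1) % 2 = 0 →
      ((x * y).1.1 + (x * y).2.1.1 + (x * y).2.2.1) % 2 = 0 := by decide +kernel
    exact fun {x y} hx hy => this x hx y hy
  inv_mem' := by
    have : ∀ x : Hc, (x.1.1 + x.2.1.1 + x.2.2.1) % 2 = 0 → (x⁻¹.1.1 + x⁻¹.2.1.1 + x⁻¹.2.2.1) % 2 = 0 := by decide +kernel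
    exact fun {x} hx => this x hx

instance hUD : DecidablePred (· ∈ hU) := fun x => inferInstanceAs (Decidable ((x.1.1 + x.2.1.1 + x.2.2.1) % 2 = 0))

theorem exists_hol {G : Type*} [Group G] {a s p : G} (a8 : orderOf a = 8) (ss : s * s = 1) (pp : p * p = 1)
    (sa : s * a * s⁻¹ = a ^ 3) (pa : p * a * p⁻¹ = a ^ 5) (ps : p * s = s * p) :
    ∃ f : Hc →* G, Function.Injective f ∧ f (hk 1 0 0) = a ∧ f (hk 0 1 0) = s ∧ f (hk 0 0 1) = p := by
  have e8 : a ^ 8 = 1 := a8 ▸ pow_orderOf_eq_one a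
  have h1 : ∀ j k : Fin 2, s ^ j.1 * p ^ k.1 * a * (s ^ j.1 * p ^ k.1)⁻¹ = a ^ (hu j k).1 := fun j k => by
    fin_cases j <;> fin_cases k
    · simp [hu]
    · simpa [hu] using pa
    · simpa [hu] using sa
    · calc s ^ 1 * p ^ 1 * a * (s ^ 1 * p ^ 1)⁻¹ = s * (p * a * p⁻¹) * s⁻¹ := by group
        _ = a ^ 7 := by rw [pa, ← conj_pow, sa, ← pow_mul, pow_eq_pow_mod _ e8]
  have h2 : ∀ (t : G), t * t = 1 → ∀ j j' : Fin 2, t ^ (j + j').1 = t ^ j.1 * t ^ j'.1 := fun t ht j j' => by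
    rw [Fin.val_add, ← pow_eq_pow_mod _ (by rw [pow_two, ht]), pow_add]
  let f : Hc →* G := MonoidHom.mk' (fun x => a ^ x.1.1 * (s ^ x.2.1.1 * p ^ x.2.2.1)) fun x y => by
    change a ^ (x.1 + hu x.2.1 x.2.2 * y.1).1 * (s ^ (x.2.1 + y.2.1).1 * p ^ (x.2.2 + y.2.2).1) = _
    rw [h2 s ss, h2 p pp, Fin.val_add, ← pow_eq_pow_mod _ e8, pow_add, Fin.val_mul, ← pow_eq_pow_mod _ e8, pow_mul, ← h1, conj_pow,
      ((show Commute s p from ps.symm).pow_pow _ _).mul_mul_mul_comm]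
    group
  refine ⟨f, (injective_iff_map_eq_one f).2 fun x hx => ?_, by simp [f, hk], by simp [f, hk], by simp [f, hk]⟩
  have k : ∀ i j : Fin 8, a ^ i.1 = a ^ j.1 → i = j := fun i j e =>
    Fin.ext (pow_injOn_Iio_orderOf (i.2.trans_eq a8.symm) (j.2.trans_eq a8.symm) e)
  have h3 : f (x * hk 1 0 0 * x⁻¹) = f (hk 1 0 0) := by rw [map_mul, map_mul, map_inv, hx]; simp
  rw [show x * hk 1 0 0 * x⁻¹ = hk (hu x.2.1 x.2.2) 0 0 by clear * -; revert x; decide +kernel] at h3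
  have h4 := k (hu x.2.1 x.2.2) 1 (by simpa [f, hk] using h3)
  obtain ⟨i, rfl⟩ : ∃ i, x = hk i 0 0 := by clear * - h4; revert x; decide +kernel
  rw [k i 0 (by simpa [f, hk] using hx)]; rfl

/-- Proof. `z = a⁴`, `c = a²`. `T₁ = {aⁱ σ | σ ∈ {1, s, p, s p}}` is a subgroup (`σ` acts on `⟨a⟩` as
the power `1, 3, 5, 7`), `≅ Hol(C₈)`, of order 32 (a convenient model: `ZMod 8 × ZMod 2 × ZMod 2` or
`ZMod 8 ⋊ (ZMod 8)ˣ` with a hom `f` into `G`, injective because a non-trivial `σ` does not centralise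
`a`; finite facts by `decide`). `z` is central in `T₁`, so `32 ∣ |C(z)|` and `z` is not conjugate to
`s` (nor to `p`) by `h32`.
* `T₁` is Sylow (`eq_of_inf_normalizer_le`): let `T₁ ≤ T` be a 2-group, `w ∈ T ⊓ N(T₁)`.
  `C_{T₁}(p) = {c^j σ}` has order 16, and `T ⊓ C(p)` is a 2-group containing it of order dividing
  `|C(p)| = |C(s)|`, so they are equal. `p` commutes with all squares of `T₁` (they are powers of `c`),
  so the involution `w p w⁻¹ ∈ T₁` commutes with `c = a² = w (w⁻¹ a w)² w⁻¹`; the involutions of `T₁`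
  commuting with `c` are `z, p, p z`; `w p w⁻¹ ≠ z`; and `a p a⁻¹ = p z`. So `w` or `a⁻¹ w` lies in
  `T ⊓ C(p) ≤ T₁`.
* `U = {aⁱ sʲ pᵏ | i + j + k even}` has index 2 in `T₁`, contains all commutators, and `s ∉ U`. The
  involutions of `U` are `z` and `cʲ s p`, which are conjugate (under `⟨a⟩`: `a (s p) a⁻¹ = c s p`) to
  `s p = p s`, hence to `z`; so no conjugate of `s` lies in `U`, i.e. `s s' ∈ U` for every conjugate
  `s' ∈ T₁` of `s`. `KSG.Z2L.transfer` (or Thompson `S0111`) gives `s ∈ U`, a contradiction. -/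
theorem k8 {G : Type*} [Group G] [Finite G] [IsSimpleGroup G] (hG : ¬ IsMulCommutative G)
    {a s p : G} (a8 : orderOf a = 8) (ss : s * s = 1) (pp : p * p = 1) (sa : s * a * s⁻¹ = a ^ 3)
    (pa : p * a * p⁻¹ = a ^ 5) (ps : p * s = s * p)
    (h32 : ¬ 32 ∣ Nat.card (centralizer ({s} : Set G))) (sp : IsConj s p)
    (zp : IsConj (a ^ 4) (p * s)) : False := by
  obtain ⟨f, hf, rfl, rfl, rfl⟩ := exists_hol a8 ss pp sa pa ps
  have cc : ∀ {x y : G}, IsConj x y → Nat.card (centralizer ({y} : Set G)) = Nat.card (centralizer ({x} : Set G)) := fun h => by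
    obtain ⟨k, rfl⟩ := isConj_iff.1 h
    rw [centralizer_singleton_conj, card_cj]
  have c32 : Nat.card f.range = 2 ^ 5 := by
    rw [← Nat.card_congr (MonoidHom.ofInjective hf).toEquiv, Nat.card_eq_fintype_card]; rfl
  have nz : ¬ IsConj (f (hk 0 1 0)) (f (hk 4 0 0)) := fun h => h32 (by
    rw [← cc h]
    refine (c32.symm ▸ dvd_rfl : 32 ∣ Nat.card f.range).trans (card_dvd_of_le ?_)
    rintro _ ⟨x, rfl⟩
    rw [mem_centralizer_singleton_iff, ← map_mul, ← map_mul, (by decide +kernel : ∀ x, x * hk 4 0 0 = hk 4 0 0 * x)])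
  obtain ⟨T, hT, h1⟩ := exists_isSyl_ge (IsPGroup.of_card c32) le_top
  have h2 : T ⊓ centralizer {f (hk 0 0 1)} ≤ f.range := by
    have k1 : (centralizer {hk 0 0 1}).map f ≤ T ⊓ centralizer {f (hk 0 0 1)} := by
      rintro _ ⟨x, hx, rfl⟩
      exact ⟨h1 ⟨x, rfl⟩, mem_centralizer_singleton_iff.2 (by rw [← map_mul, ← map_mul, mem_centralizer_singleton_iff.1 hx])⟩
    have k2 : Nat.card ((centralizer {hk 0 0 1}).map f) = 16 := by
      rw [card_map_of_injective hf, Nat.card_congr (Equiv.subtypeEquivRight (q := fun x => x * hk 0 0 1 = hk 0 0 1 * x)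
        fun _ => mem_centralizer_singleton_iff), Nat.card_eq_fintype_card]
      decide +kernel
    obtain ⟨n, hn⟩ := IsPGroup.iff_card.1 (hT.pgrp.to_inf_left (K := centralizer {f (hk 0 0 1)}))
    have k3 : n < 5 := Nat.lt_of_not_le fun c => h32 (by
      rw [← cc sp]; exact (pow_dvd_pow 2 c).trans (hn ▸ card_dvd_of_le inf_le_right))
    rw [← eq_of_le_of_card_ge k1 (by rw [k2, hn]; exact Nat.pow_le_pow_right (i := n) (j := 4) two_pos (by omega))]
    exact map_le_range _ _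
  obtain rfl := eq_of_inf_normalizer_le hT.pgrp h1 fun w hw => by
    obtain ⟨x, hx⟩ := conj_mem_of_mem_normalizer hw.2 (⟨_, rfl⟩ : f (hk 0 0 1) ∈ f.range)
    obtain ⟨y, hy⟩ := inv_conj_mem_of_mem_normalizer hw.2 (⟨_, rfl⟩ : f (hk 1 0 0) ∈ f.range)
    have e1 : x * x = 1 := hf (by rw [map_mul, hx, conj_mul, pp, map_one]; simp)
    have e2 : x ≠ 1 := fun c => by
      rw [c, map_one, eq_comm, conj_eq_one_iff, map_eq_one_iff _ hf] at hx
      exact absurd hx (by decide)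
    have e3 : x * (hk 1 0 0 * hk 1 0 0) = hk 1 0 0 * hk 1 0 0 * x := hf (by
      have := congrArg f ((by decide +kernel : ∀ y, hk 0 0 1 * (y * y) = y * y * hk 0 0 1) y)
      simp only [map_mul, hy] at this
      simp only [map_mul, hx]
      calc _ = w * (f (hk 0 0 1) * (w⁻¹ * f (hk 1 0 0) * w * (w⁻¹ * f (hk 1 0 0) * w))) * w⁻¹ := by group
        _ = _ := by rw [this]; group)
    obtain rfl | rfl | rfl : x = hk 4 0 0 ∨ x = hk 0 0 1 ∨ x = hk 1 0 0 * hk 0 0 1 * (hk 1 0 0)⁻¹ := by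
      clear * - e1 e2 e3; revert x; decide +kernel
    · exact absurd (sp.trans (isConj_iff.2 ⟨w, hx.symm⟩)) nz
    · exact h2 ⟨hw.1, mem_centralizer_singleton_iff.2 (mul_inv_eq_iff_eq_mul.1 hx.symm)⟩
    · refine (mul_mem_cancel_left (inv_mem (⟨_, rfl⟩ : f (hk 1 0 0) ∈ f.range))).1
        (h2 ⟨T.mul_mem (T.inv_mem (h1 ⟨_, rfl⟩)) hw.1, mem_centralizer_singleton_iff.2 ?_⟩)
      rw [map_mul, map_mul, map_inv] at hx
      calc _ = (f (hk 1 0 0))⁻¹ * (w * f (hk 0 0 1) * w⁻¹) * w := by group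
        _ = _ := by rw [← hx]; group
  have := KSG.Z2L.transfer (M := hU.map f) ((inferInstance : (commutator G).Normal).eq_bot_or_eq_top.resolve_left fun c =>
    hG ((commutator_eq_bot_iff G).1 c)) hT (by
      rintro _ ⟨x, rfl⟩ _ ⟨y, rfl⟩
      exact ⟨x * y * x⁻¹ * y⁻¹, (by decide +kernel : ∀ x y : Hc, x * y * x⁻¹ * y⁻¹ ∈ hU) x y, by simp⟩) ss ⟨_, rfl⟩ (by
      rintro _ ⟨x, rfl⟩ h
      obtain ⟨g, hg⟩ := isConj_iff.1 h
      have e1 : x * x = 1 := hf (by rw [map_mul, ← hg, conj_mul, ss, map_one]; simp)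
      have e2 : x ≠ 1 := fun c => by
        rw [c, map_one, conj_eq_one_iff, map_eq_one_iff _ hf] at hg
        exact absurd hg (by decide)
      obtain e | rfl | ⟨y, rfl⟩ : hk 0 1 0 * x ∈ hU ∨ x = hk 4 0 0 ∨ ∃ y, x = y * (hk 0 0 1 * hk 0 1 0) * y⁻¹ := by
        clear * - e1 e2; revert x; decide +kernel
      · exact ⟨_, e, map_mul _ _ _⟩
      · exact absurd h nz
      · rw [← map_pow, show hk 1 0 0 ^ 4 = hk 4 0 0 by decide +kernel, ← map_mul] at zp
        exact absurd (h.trans ((zp.trans (f.map_isConj (isConj_iff.2 ⟨y, rfl⟩))).symm)) nz)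
  exact absurd ((mem_map_iff_mem hf).1 this) (by decide)

end Cfsg.Agent.M11N
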