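import Mathlib
import Cfsg.Agent.M11N.Defs
import Cfsg.Agent.Solv.Coprime3
import Cfsg.Agent.Grp.AutCard
import Cfsg.Agent.Small.Tools

/-! S3717: the hypotheses give the configuration `Cfg`. -/

set_option autoImplicit false

namespace Cfsg.Agent.M11N

open Subgroup Cfsg Cfsg.Agent.PLocal.Amb

section
variable {G : Type*} [Group G] [Finite G] {M : Subgroup G}

omit [Finite G] in
theorem su_inv_ne {x : G} (x3 : x ^ 3 = 1) (x1 : x ≠ 1) : x⁻¹ ≠ x := fun e => x1 (by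
  rwa [pow_succ, pow_two, show x * x = 1 by nth_rw 1 [← e]; simp, one_mul] at x3)

/-- proper subgroups of `3²` -/
theorem su_tri (h9 : Nat.card M = 9) (h3 : ∀ m ∈ M, m ^ 3 = 1) {K : Subgroup G} {n x : G} (hn : n ∈ M)
    (n1 : n ≠ 1) (nK : n ∈ K) (hx : x ∈ M) (xK : x ∈ K) : M ≤ K ∨ x = 1 ∨ x = n ∨ x = n⁻¹ := by
  by_cases hle : M ≤ K
  · exact Or.inl hle
  right
  have o3 : orderOf n = 3 := orderOf_eq_prime (h3 n hn) n1
  have h1 : Nat.card ↥(M ⊓ K) ∣ 3 ^ 2 := (card_dvd_of_le inf_le_left).trans h9.dvd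
  have h2 : Nat.card ↥(M ⊓ K) ≠ 9 := fun e =>
    hle (inf_eq_left.1 (eq_of_le_of_card_ge inf_le_left (by rw [e, h9])))
  have h4 : Nat.card ↥(M ⊓ K) ≤ 3 := by
    obtain ⟨k, hk, e⟩ := (Nat.dvd_prime_pow Nat.prime_three).1 h1
    rw [e] at h2 ⊢
    interval_cases k <;> simp_all
  have h5 : zpowers n = M ⊓ K := eq_of_le_of_card_ge (zpowers_le.2 ⟨hn, nK⟩) (by rwa [Nat.card_zpowers, o3])
  obtain ⟨k, rfl⟩ := (mem_powers_iff_mem_zpowers.2 (h5 ▸ ⟨hx, xK⟩ : x ∈ zpowers n))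
  have := Nat.mod_lt k (by norm_num : 0 < 3)
  dsimp only
  rw [← pow_mod_orderOf, o3]
  generalize k % 3 = j at this
  interval_cases j
  · simp
  · simp
  · exact Or.inr (Or.inr (eq_inv_of_mul_eq_one_left (by rw [← pow_succ, h3 n hn])))

/-- `a⁴` inverts `M` -/
theorem su_inv (h9 : Nat.card M = 9) (h3 : ∀ m ∈ M, m ^ 3 = 1) (hc : ∀ x ∈ M, ∀ y ∈ M, x * y = y * x)
    (cen : ∀ t : G, t ^ 8 = 1 → M ≤ centralizer {t} → t = 1) {a : G} (a8 : orderOf a = 8) (ha : a ∈ 𝐍[M])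
    {m : G} (hm : m ∈ M) : a ^ 4 * m * (a ^ 4)⁻¹ = m⁻¹ := by
  have e8 : a ^ 8 = 1 := a8 ▸ pow_orderOf_eq_one a
  have ne : ∀ k, 0 < k → k < 8 → ¬ M ≤ centralizer {a ^ k} := fun k k0 k8 e => by
    have := orderOf_dvd_of_pow_eq_one (cen _ (by rw [← pow_mul, mul_comm, pow_mul, e8, one_pow]) e)
    rw [a8] at this
    exact absurd (Nat.le_of_dvd k0 this) (by omega)
  have hz : a ^ 4 ∈ 𝐍[M] := pow_mem ha 4
  have az : Commute a (a ^ 4) := (Commute.refl a).pow_right 4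
  generalize hz4 : a ^ 4 = z at hz az ⊢
  have zz : z * z = 1 := by rw [← hz4, ← pow_add, e8]
  have zi : z⁻¹ = z := inv_eq_of_mul_eq_one_right zz
  have fix : ∀ n ∈ M, z * n * z⁻¹ = n → n = 1 := fun n hn e => by_contra fun n1 => by
    have sq : ∀ y : G, a * y * a⁻¹ = y ∨ a * y * a⁻¹ = y⁻¹ → y ∈ centralizer ({a ^ 2} : Set G) := fun y e =>
      mem_centralizer_singleton_iff.2 (by
        rw [eq_comm, ← mul_inv_eq_iff_eq_mul, show a ^ 2 * y * (a ^ 2)⁻¹ = a * (a * y * a⁻¹) * a⁻¹ by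
          rw [pow_two]; group]
        rcases e with e | e
        · rw [e, e]
        · rw [e, ← conj_inv, e, inv_inv])
    have nz : ¬ M ≤ centralizer {z} := hz4 ▸ ne 4 (by norm_num) (by norm_num)
    have c1 : n ∈ centralizer ({a ^ 2} : Set G) := sq n (by
      rcases su_tri h9 h3 (K := centralizer {z}) hn n1
        (mem_centralizer_singleton_iff.2 (mul_inv_eq_iff_eq_mul.1 e).symm) (conj_mem_of_mem_normalizer ha hn)
        (mem_centralizer_singleton_iff.2 (by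
          rw [mul_assoc, az.inv_left.eq, ← mul_assoc, mul_assoc a, ← mul_inv_eq_iff_eq_mul.1 e, ← mul_assoc, az.eq]
          group)) with k | k | k
      · exact absurd k nz
      · exact absurd (by simpa using k) n1
      · exact k)
    obtain ⟨m, hm, mz⟩ := SetLike.not_le_iff_exists.1 nz
    let I : Subgroup G :=
      { carrier := {x | x ∈ M ∧ z * x * z⁻¹ = x⁻¹}
        one_mem' := ⟨one_mem _, by simp⟩
        mul_mem' := fun {x y} hx hy => ⟨mul_mem hx.1 hy.1, by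
          rw [← conj_mul, hx.2, hy.2, ← mul_inv_rev, hc x hx.1 y hy.1]⟩
        inv_mem' := fun {x} hx => ⟨inv_mem hx.1, by rw [← conj_inv, hx.2]⟩ }
    have hn' : m⁻¹ * (z * m * z⁻¹) ∈ I := ⟨mul_mem (inv_mem hm) (conj_mem_of_mem_normalizer hz hm), by
      rw [← conj_mul, show z * (z * m * z⁻¹) * z⁻¹ = z * z * m * (z * z)⁻¹ by group, zz]; group⟩
    have n1' : m⁻¹ * (z * m * z⁻¹) ≠ 1 := fun e => mz (mem_centralizer_singleton_iff.2 (by
      rw [inv_mul_eq_one, eq_mul_inv_iff_mul_eq] at e; exact e))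
    generalize m⁻¹ * (z * m * z⁻¹) = n' at hn' n1'
    have nI : n ∉ I := fun k => su_inv_ne (h3 n hn) n1 (k.2.symm.trans e)
    have c2 : n' ∈ centralizer ({a ^ 2} : Set G) := sq n' (by
      rcases su_tri h9 h3 (K := I) hn'.1 n1' hn' (conj_mem_of_mem_normalizer ha hn'.1)
        ⟨conj_mem_of_mem_normalizer ha hn'.1, by
          rw [conj_inv, ← hn'.2, show z * (a * n' * a⁻¹) * z⁻¹ = z * a * n' * (z * a)⁻¹ by group, ← az.eq]
          group⟩ with k | k | k
      · exact absurd (k hn) nI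
      · exact absurd (by simpa using k) n1'
      · exact k)
    rcases su_tri h9 h3 hn n1 c1 hn'.1 c2 with k | k | k | k
    · exact ne 2 (by norm_num) (by norm_num) k
    · exact n1' k
    · exact nI (k ▸ hn')
    · exact nI (by simpa using inv_mem (k ▸ hn' : n⁻¹ ∈ I))
  have hm' := conj_mem_of_mem_normalizer hz hm
  refine eq_inv_of_mul_eq_one_right (fix _ (mul_mem hm hm') ?_)
  rw [← conj_mul, show z * (z * m * z⁻¹) * z⁻¹ = z * z * m * (z * z)⁻¹ by group, zz, one_mul, inv_one, mul_one,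
    hc _ hm' _ hm]

end

set_option maxHeartbeats 400000 in
theorem exists_cfg {G : Type*} [Group G] [Finite G] (M : Sylow 3 G)
    (hM9 : Nat.card ↥(M : Subgroup G) = 9) (hMel : ∀ m ∈ (M : Subgroup G), m ^ 3 = 1)
    (hCM : Subgroup.centralizer ((M : Subgroup G) : Set G) = (M : Subgroup G))
    (N : Subgroup G) (hN : N = Subgroup.normalizer ((M : Subgroup G) : Set G))
    (hCg : ∀ g ∈ (M : Subgroup G), g ≠ 1 → Subgroup.centralizer ({g} : Set G) ≤ N)
    (hS : ∀ S : Sylow 2 ↥N, Nat.card ↥(S : Subgroup ↥N) = 16 ∧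
      ∃ a ∈ (S : Subgroup ↥N), ∃ b ∈ (S : Subgroup ↥N), orderOf a = 8 ∧ orderOf b = 2 ∧
        b * a * b⁻¹ = a ^ 3) : ∃ a c z s g : G, Cfg a c z s g := by
  classical
  subst hN
  have hsyl := isSyl_top M
  have h27 : ¬ 27 ∣ Nat.card G := fun h => by
    rw [← (M : Subgroup G).card_mul_index, hM9] at h
    exact M.not_dvd_index (Nat.dvd_of_mul_dvd_mul_left (by norm_num : 0 < 9) h)
  obtain ⟨D⟩ := (inferInstance : Nonempty (Sylow 2 (Subgroup.normalizer ((M : Subgroup G) : Set G))))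
  obtain ⟨hD, ⟨a, ha⟩, -, ⟨s, hs⟩, -, a8, s2, sa⟩ := hS D
  have h16 := hD ▸ card_subgroup_dvd_card (D : Subgroup (Subgroup.normalizer ((M : Subgroup G) : Set G)))
  clear hD hS D
  generalize (M : Subgroup G) = M at *
  have hc : ∀ x ∈ M, ∀ y ∈ M, x * y = y * x := fun x hx y hy => (hCM.ge hy) x hx
  have : IsMulCommutative M := ⟨⟨fun x y => Subtype.ext (hc _ x.2 _ y.2)⟩⟩
  have h144 : Nat.card 𝐍[M] = 144 := by
    have h1 := Small.relIndex_centralizer_dvd_card_mulAut M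
    have h2 := Small.card_centralizer_mul_relIndex M
    rw [Grp.card_mulAut_of_elemAb (p := 3) (r := 2) (fun x y => Subtype.ext (hc _ x.2 _ y.2))
      (fun x => Subtype.ext (hMel x x.2)) hM9] at h1
    rw [hCM] at h1 h2
    rw [hM9] at h2
    have h3 : ¬ 27 ∣ Nat.card 𝐍[M] := fun h => h27 (h.trans (Subgroup.card_subgroup_dvd_card _))
    have h6 : M.relIndex 𝐍[M] ∣ 48 := h1
    have := Nat.le_of_dvd (by norm_num) h6
    rw [← h2] at h3 h16 ⊢
    generalize M.relIndex 𝐍[M] = k at *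
    have h7 : k = 0 ∨ k = 16 ∨ k = 32 ∨ k = 48 := by omega
    rcases h7 with rfl | rfl | rfl | rfl
    · simp at h3
    · rfl
    · exact absurd h6 (by norm_num)
    · simp at h3
  rw [← orderOf_coe] at a8 s2
  replace sa : s * a * s⁻¹ = a ^ 3 := congrArg Subtype.val sa
  dsimp only at a8 s2
  have e8 : a ^ 8 = 1 := a8 ▸ pow_orderOf_eq_one a
  have ss : s * s = 1 := by rw [← pow_two, ← s2, pow_orderOf_eq_one]
  have s1 : s ≠ 1 := fun e => by simp [e] at s2
  have cen : ∀ t : G, t ^ 8 = 1 → M ≤ centralizer {t} → t = 1 := fun t t8 e => by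
    have : t ^ 3 = 1 := hMel t (hCM.le fun x hx => mem_centralizer_singleton_iff.1 (e hx))
    have k : t ^ (8 + 1) = 1 := by rw [show 8 + 1 = 3 * 3 from rfl, pow_mul, this, one_pow]
    rwa [pow_succ, t8, one_mul] at k
  have zi : ∀ m ∈ M, a ^ 4 * m * (a ^ 4)⁻¹ = m⁻¹ := fun m hm => su_inv hM9 hMel hc cen a8 ha hm
  have sz : s * a ^ 4 * s⁻¹ = a ^ 4 := by
    rw [← conj_pow, sa, ← pow_mul, show 3 * 4 = 8 + 4 from rfl, pow_add, e8, one_mul]
  obtain ⟨g, hg, g1, sg⟩ : ∃ g ∈ M, g ≠ 1 ∧ s * g = g * s := by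
    by_contra! k
    have k1 : ∀ m ∈ M, s * m * s⁻¹ = m⁻¹ := fun m hm => by
      have hm' := conj_mem_of_mem_normalizer hs hm
      by_contra e
      refine k _ (mul_mem hm hm') (fun e' => e (eq_inv_of_mul_eq_one_right e')) ?_
      rw [← mul_inv_eq_iff_eq_mul, ← conj_mul, show s * (s * m * s⁻¹) * s⁻¹ = s * s * m * (s * s)⁻¹ by group, ss,
        one_mul, inv_one, mul_one, hc _ hm' _ hm]
    have k2 : a ^ 4 * s = 1 := cen _ (by
      rw [(show Commute s (a ^ 4) from mul_inv_eq_iff_eq_mul.1 sz).symm.mul_pow, ← pow_mul, mul_comm 4, pow_mul, e8,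
        show 8 = 2 * 4 from rfl, pow_mul s, pow_two s, ss]; simp) fun m hm =>
      mem_centralizer_singleton_iff.2 (by
        rw [eq_comm, ← mul_inv_eq_iff_eq_mul, show a ^ 4 * s * m * (a ^ 4 * s)⁻¹ = a ^ 4 * (s * m * s⁻¹) * (a ^ 4)⁻¹ by
          group, k1 m hm, zi _ (inv_mem hm), inv_inv])
    rw [eq_inv_of_mul_eq_one_right k2] at sa
    have : a ^ 2 = 1 := by rw [← mul_left_inj a, ← pow_succ, ← sa]; group
    have := orderOf_dvd_of_pow_eq_one this
    rw [a8] at this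
    omega
  have g3 := hMel g hg
  have gi := su_inv_ne g3 g1
  have hg' : a * a * g * (a * a)⁻¹ ∈ M := conj_mem_of_mem_normalizer (mul_mem ha ha) hg
  have z4 : a * a * (a * a) = a ^ 4 := by simp only [pow_succ, pow_zero, one_mul, mul_assoc]
  have sg' : s * (a * a * g * (a * a)⁻¹) * s⁻¹ = (a * a * g * (a * a)⁻¹)⁻¹ := by
    have e1 : s * (a * a) * s⁻¹ = a * a * a ^ 4 := by rw [← conj_mul, sa]; group
    rw [← conj_mul, ← conj_mul, ← conj_inv, e1, sg, mul_inv_cancel_right, conj_inv, ← zi g hg]; group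
  have g1' : a * a * g * (a * a)⁻¹ ≠ 1 := fun e => g1 (conj_eq_one_iff.1 e)
  have gs' : s * (a * a * g * (a * a)⁻¹) ≠ a * a * g * (a * a)⁻¹ * s := fun e =>
    su_inv_ne (hMel _ hg') g1' (by rw [← sg', e, mul_inv_cancel_right])
  have into : ∀ (x : G) (k : ℕ), x ^ 3 ^ k = 1 → ∃ l, l * x * l⁻¹ ∈ M := fun x k e => by
    obtain ⟨l, -, hl⟩ := hsyl.exists_cj_le (isPGroup_zpowers ⟨k, e⟩) le_top
    exact ⟨l, hl (conj_mem_cj l (mem_zpowers x))⟩
  have orb : ∀ m ∈ M, m ≠ 1 → ∃ i : ℕ, a ^ i * g * (a ^ i)⁻¹ = m := by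
    have k1 : ∀ k, 0 < k → k < 8 → ¬ Commute (a ^ k) g := fun k k0 k8 e => by
      obtain ⟨l, j, hl⟩ : ∃ l j, k * l = 8 * j + 4 := by
        interval_cases k
        exacts [⟨4, 0, rfl⟩, ⟨2, 0, rfl⟩, ⟨4, 1, rfl⟩, ⟨1, 0, rfl⟩, ⟨4, 2, rfl⟩, ⟨2, 1, rfl⟩, ⟨4, 3, rfl⟩]
      have := e.pow_left l
      rw [← pow_mul, hl, pow_add, pow_mul, e8, one_pow, one_mul] at this
      exact gi (by rw [← zi g hg, this.eq, mul_inv_cancel_right])
    have k2 : ∀ i j, i < j → j < 8 → a ^ i * g * (a ^ i)⁻¹ ≠ a ^ j * g * (a ^ j)⁻¹ := fun i j ij j8 e => by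
      obtain ⟨k, rfl⟩ := Nat.exists_eq_add_of_le ij.le
      refine k1 k (by omega) (by omega) ?_
      rw [pow_add, mul_inv_rev, mul_assoc, mul_assoc, mul_assoc, mul_right_inj, ← mul_assoc, ← mul_assoc,
        mul_left_inj, eq_mul_inv_iff_mul_eq] at e
      exact e.symm
    have k3 : (fun i : ℕ => a ^ i * g * (a ^ i)⁻¹) '' (Finset.range 8 : Set ℕ) = (M : Set G) \ {1} := by
      refine Set.eq_of_subset_of_ncard_le ?_ ?_
      · rintro _ ⟨i, -, rfl⟩
        exact ⟨conj_mem_of_mem_normalizer (pow_mem ha i) hg, by simpa using g1⟩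
      · rw [Set.ncard_sdiff_singleton_of_mem (one_mem M), ← Nat.card_coe_set_eq, SetLike.coe_sort_coe, hM9,
          Set.InjOn.ncard_image, Set.ncard_coe_finset, Finset.card_range]
        intro i hi j hj e
        simp only [Finset.coe_range, Set.mem_Iio] at hi hj
        rcases lt_trichotomy i j with k | k | k
        exacts [absurd e (k2 i j k hj), k, absurd e.symm (k2 j i k hi)]
    intro m hm m1
    obtain ⟨i, -, e⟩ := k3.ge ⟨hm, m1⟩
    exact ⟨i, e⟩
  have c18 : Nat.card (centralizer ({g} : Set G)) = 18 := by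
    let := MulAction.compHom G ((MulAut.conj (G := G)).comp 𝐍[M].subtype)
    have sm : ∀ (x : 𝐍[M]) (y : G), x • y = x * y * (x : G)⁻¹ := fun _ _ => rfl
    have k1 : MulAction.stabilizer 𝐍[M] g = (centralizer ({g} : Set G)).subgroupOf 𝐍[M] := by
      ext x
      rw [MulAction.mem_stabilizer_iff, sm, mem_subgroupOf, mem_centralizer_singleton_iff, mul_inv_eq_iff_eq_mul]
    have k2 : MulAction.orbit 𝐍[M] g = (M : Set G) \ {1} := by
      ext y
      constructor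
      · rintro ⟨x, rfl⟩
        exact ⟨conj_mem_of_mem_normalizer x.2 hg, by simpa [sm] using g1⟩
      · rintro ⟨hy, y1⟩
        obtain ⟨i, e⟩ := orb y hy y1
        exact ⟨⟨_, pow_mem ha i⟩, e⟩
    have k3 := (MulAction.stabilizer 𝐍[M] g).card_mul_index
    rw [MulAction.index_stabilizer, k2, Set.ncard_sdiff_singleton_of_mem (one_mem M), ← Nat.card_coe_set_eq,
      SetLike.coe_sort_coe, hM9, h144, k1, Nat.card_congr (subgroupOfEquivOfLe (hCg g hg g1)).toEquiv] at k3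
    omega
  have f0 : ∀ P : Subgroup G, ¬ 3 ∣ Nat.card P → M ≤ 𝐍[P] → P = ⊥ := fun P p3 hP => by
    have cop : (Nat.card M).Coprime (Nat.card P) := by
      rw [hM9]; exact ((Nat.Prime.coprime_iff_not_dvd Nat.prime_three).2 p3).pow_left 2
    have mp : ∀ x ∈ M, x ∈ P → x = 1 := fun x h1 h2 =>
      mem_bot.1 ((disjoint_of_coprime_natCard cop).le_bot ⟨h1, h2⟩)
    refine le_bot_iff.1 (Solv.le_of_centralizers_le M P (fun hcy => ?_) hP cop ⊥ fun m hm m1 d hd => ?_)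
    · obtain ⟨x, hx⟩ := hcy.exists_generator
      have := orderOf_dvd_of_pow_eq_one (Subtype.ext (hMel x x.2) : x ^ 3 = 1)
      rw [orderOf_eq_card_of_forall_mem_zpowers hx, hM9] at this
      omega
    · refine mem_bot.2 (mp d (hCM.le fun n hn => ?_) hd.1)
      have := mp (n * d * n⁻¹ * d⁻¹) (by
        simpa [mul_assoc] using mul_mem hn (conj_mem_of_mem_normalizer (hCg m hm m1 hd.2) (inv_mem hn)))
        (mul_mem (conj_mem_of_mem_normalizer (hP hn) hd.1) (inv_mem hd.1))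
      rwa [mul_inv_eq_one, mul_inv_eq_iff_eq_mul] at this
  refine ⟨a, a * a, a * a * (a * a), s, g, a8, rfl, rfl, ss, s1, sa, g3, g1, sg, z4 ▸ zi g hg, hc _ hg _ hg',
    fun x x3 x1 => ?_, fun x x9 => ?_, hM9 ▸ card_subgroup_dvd_card M, h27, c18, fun x xg xs => ?_,
    fun P p3 h9 => ?_, fun P p3 h1 h2 => f0 P p3 ?_⟩
  · obtain ⟨l, hl⟩ := into x 1 x3
    obtain ⟨i, e⟩ := orb _ hl (by simpa using x1)
    exact isConj_iff.2 ⟨l⁻¹ * a ^ i, by
      rw [show l⁻¹ * a ^ i * g * (l⁻¹ * a ^ i)⁻¹ = l⁻¹ * (a ^ i * g * (a ^ i)⁻¹) * l by group, e]; group⟩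
  · obtain ⟨l, hl⟩ := into x 2 x9
    simpa using hMel _ hl
  · have cm : Commute g s := sg.symm
    have o6 : orderOf (g * s) = 6 := by
      rw [cm.orderOf_mul_eq_mul_orderOf_of_coprime, orderOf_eq_prime g3 g1, s2]
      rw [orderOf_eq_prime g3 g1, s2]; norm_num
    have le1 : zpowers (g * s) ≤ centralizer ({g} : Set G) ⊓ centralizer ({s} : Set G) := zpowers_le.2
      ⟨mem_centralizer_singleton_iff.2 ((Commute.refl g).mul_left cm.symm),
        mem_centralizer_singleton_iff.2 (cm.mul_left (Commute.refl s))⟩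
    have d1 := card_dvd_of_le le1
    have d2 := c18 ▸ card_dvd_of_le
      (inf_le_left : centralizer ({g} : Set G) ⊓ centralizer ({s} : Set G) ≤ centralizer ({g} : Set G))
    have d3 : Nat.card ↥(centralizer ({g} : Set G) ⊓ centralizer ({s} : Set G)) ≠ 18 := fun e => gs'
      (mem_centralizer_singleton_iff.1 (inf_eq_left.1 (eq_of_le_of_card_ge inf_le_left (by rw [e, c18]))
        (mem_centralizer_singleton_iff.2 (hc _ hg' _ hg)))).symm
    rw [Nat.card_zpowers, o6] at d1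
    rw [eq_of_le_of_card_ge le1 (by
      rw [Nat.card_zpowers, o6]
      obtain ⟨k, hk⟩ := d1
      rw [hk] at d2 d3 ⊢
      have := Nat.le_of_dvd (by norm_num) d2
      have : k ≠ 2 := by rintro rfl; omega
      omega)]
    exact ⟨mem_centralizer_singleton_iff.2 xg, mem_centralizer_singleton_iff.2 xs⟩
  · obtain ⟨T, hT⟩ := Sylow.exists_subgroup_card_pow_prime 3 (n := 2) h9
    have hT' : Nat.card (T.map 𝐍[P].subtype) = 3 ^ 2 := by rw [card_map_of_injective (subtype_injective _), hT]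
    obtain ⟨l, -, hl⟩ := hsyl.exists_cj_le (IsPGroup.of_card hT') le_top
    refine cj_eq_bot.1 (f0 cj(l, P) (by rwa [card_cj]) ?_)
    rw [← eq_of_le_of_card_ge hl (by rw [card_cj, hT', hM9]; rfl), normalizer_cj]
    exact cj_mono l (map_subtype_le T)
  · rcases su_tri hM9 hMel hg g1 h1 hg' h2 with k | k | k | k
    · exact k
    · exact absurd k g1'
    · exact absurd (by rw [k, sg]) gs'
    · exact absurd (by rw [k]; exact (show Commute s g from sg).inv_right) gs'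

end Cfsg.Agent.M11N
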